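import Cfsg.Agent.Lib.F2C.Api

/-!
F2C/ABL (an abelian minimal normal `r`-subgroup `V`). `Ḡ = G/V`, `(Ā, N̄)` from `exists_AN` (`in_top`), `A' = pResOf p Ā` (`exists_pow_mem_pResOf`), `F = F(G) ≥ V`,
`ρ : Ḡ → G/F`. If `ρ x̄` centralises `ρ A'`, `mem_fit_of_cent` in `G/F` ends the proof. Else (`pResOf_le_iff`, `mem_of_primary`) a `q`-element `d̄ ∈ Ā`, `q ≠ p`, with
`⁅d, x⁆ ∉ F`; `d ∈ B` := preimage of `O_q(Ḡ)` (`mem_core_of_nilp`); `q ≠ r` (else `B ≤ F`); `B ⊓ C(V)` is nilpotent (central extension) and normal, so `⁅d, x⁆ ∉ C(V)`.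
(1) No proper `H ≥ V` contains `x, d`: `(A, N)` for `H`, `n = ⁅d, x⁆ ∈ N ⊓ B`, `n^(q^j) ∈ V`, `n^(p^k) ∈ A ⊓ B ≤ C(V)` (`mem_of_primary`: `q`-elements lie in `O_q(H)`, `core_comm`;
other primary elements of `B` lie in `V`). So `V ⊔ ⟨x, v d⟩ = ⊤` for `v ∈ V`; `H_v = ⟨x, v d⟩ ≠ ⊤` meets `V` in a normal subgroup of `G`, so trivially.
(2) `Q_v = H_v ⊓ B` is Sylow `q` in `B = V Q_v`; `C_V(Q_v)` is normal in `G`, `≠ V` (else `B ≤ C(V)`), so trivial; hence `N(Q_v) = H_v`. `Q_v = u Q_1 u⁻¹` with `u ∈ V`, so `H_v = u H_1 u⁻¹`;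
`x, u x u⁻¹ ∈ H_v` gives `u ∈ C(x)`; `v d, u d u⁻¹ ∈ H_v` gives `v = u d u⁻¹ d⁻¹`. So `u ↦ u d u⁻¹ d⁻¹` maps `C_V(x)` onto `V`, `V ≤ C(x)`, `x ∈ C(V) ⊴ G`, contradiction.
-/

set_option autoImplicit false
set_option linter.unusedSectionVars false

namespace CfsgLib.F2C

open Subgroup Cfsg CfsgLib.Tech CfsgLib.W2 CfsgLib.LAE
open scoped commutatorElement

universe u

variable {G : Type u} [Group G] [Finite G] {p q r : ℕ} [Fact p.Prime] {x n c u b : G}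
  {H K M R T T' U W : Subgroup G}

theorem abl_cop {a b : ℕ} (h : a.Coprime b) (h1 : n ^ a ∈ K) (h2 : n ^ b ∈ K) : n ∈ K := by
  have := mul_mem (zpow_mem h1 (Nat.gcdA a b)) (zpow_mem h2 (Nat.gcdB a b))
  rwa [← zpow_natCast, ← zpow_natCast, ← zpow_mul, ← zpow_mul, ← zpow_add, ← Nat.gcd_eq_gcd_ab, h,
    Nat.cast_one, zpow_one] at this

theorem abl_one (hq : q.Prime) (hr : r.Prime) (hqr : q ≠ r) {A B : Subgroup G} (hA : IsPGroup q A)
    (hB : IsPGroup r B) (h1 : n ∈ A) (h2 : n ∈ B) : n = 1 := by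
  have := Fact.mk hq
  have := Fact.mk hr
  exact disjoint_def.1 (IsPGroup.disjoint_of_ne q r hqr A B hA hB) h1 h2

theorem abl_norm {V X : Subgroup G} (hab : ∀ a ∈ V, ∀ b ∈ V, a * b = b * a) (hX : X ≤ V)
    (h : V ⊔ H = ⊤) (hH : H ≤ normalizer (X : Set G)) : X.Normal :=
  normalizer_eq_top_iff.1 (top_le_iff.1 (h ▸ sup_le
    (fun v hv => centralizer_le_normalizer _ fun a ha => hab a (hX ha) v hv) hH))

/-- part (2): conjugacy of the complements -/
theorem abl_two {V B : Subgroup G} [nV : V.Normal] [nB : B.Normal] (hq : q.Prime) (hr : r.Prime)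
    (hqr : q ≠ r) (hV : IsPGroup r V) (hab : ∀ a ∈ V, ∀ b ∈ V, a * b = b * a)
    (hmin : ∀ W ≤ V, W.Normal → W = ⊥ ∨ W = V) (VB : V ≤ B) (hB : ∀ b ∈ B, ∃ j, b ^ q ^ j ∈ V)
    (nc : ¬ B ≤ centralizer (V : Set G)) (h1 : H ≠ ⊤) (h2 : V ⊔ H = ⊤) :
    (∀ a ∈ H, a ∈ V → a = 1) ∧ LAE.IsSylowIn q (H ⊓ B) B ∧
      normalizer ((H ⊓ B : Subgroup G) : Set G) = H ∧ ∀ b ∈ B, ∃ v ∈ V, ∃ h ∈ H ⊓ B, v * h = b := by
  have dec : ∀ g, ∃ v ∈ V, ∃ h ∈ H, v * h = g := fun g =>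
    mem_sup_of_normal_left.1 (h2 ▸ mem_top g)
  have decB : ∀ b ∈ B, ∃ v ∈ V, ∃ h ∈ H ⊓ B, v * h = b := fun b hb => by
    obtain ⟨v, hv, h, hh, rfl⟩ := dec b
    exact ⟨v, hv, h, ⟨hh, (mul_mem_cancel_left (VB hv)).1 hb⟩, rfl⟩
  have ti : ∀ a ∈ H, a ∈ V → a = 1 := fun a ha hv => by
    rcases hmin (H ⊓ V) inf_le_right (abl_norm hab inf_le_right h2 ((le_inf le_normalizer
      le_normalizer_of_normal).trans inf_normalizer_le_normalizer_inf)) with e | e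
    · exact mem_bot.1 (e ▸ mem_inf.2 ⟨ha, hv⟩)
    · exact absurd (by rw [← h2, sup_eq_right.2 (e.ge.trans inf_le_left)]) h1
  have nQ : H ≤ normalizer ((H ⊓ B : Subgroup G) : Set G) :=
    (le_inf le_normalizer le_normalizer_of_normal).trans inf_normalizer_le_normalizer_inf
  refine ⟨ti, ⟨inf_le_right, fun a => ?_, fun Q hQ l1 l2 => le_antisymm (fun a ha => ?_) l1⟩,
    le_antisymm (fun g hg => ?_) nQ, decB⟩
  · obtain ⟨j, hj⟩ := hB a a.2.2
    exact ⟨j, Subtype.ext (ti _ (pow_mem a.2.1 _) hj)⟩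
  · obtain ⟨v, hv, h, hh, rfl⟩ := decB a (l2 ha)
    rw [abl_one hq hr hqr hQ hV ((mul_mem_cancel_right (l1 hh)).1 ha) hv, one_mul]
    exact hh
  · obtain ⟨v, hv, h, hh, rfl⟩ := dec g
    have vn := (mul_mem_cancel_right (nQ hh)).1 hg
    have vc : v ∈ centralizer ((H ⊓ B : Subgroup G) : Set G) := fun y hy => by
      have m1 : v * y * v⁻¹ * y⁻¹ ∈ H :=
        mul_mem ((mem_normalizer_iff.1 vn y).1 hy).1 (inv_mem hy.1)
      have m2 : v * y * v⁻¹ * y⁻¹ ∈ V := by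
        rw [mul_assoc, mul_assoc, ← mul_assoc y]
        exact mul_mem hv (nV.conj_mem _ (inv_mem hv) y)
      have := ti _ m1 m2
      rw [mul_inv_eq_one, mul_inv_eq_iff_eq_mul] at this
      exact this.symm
    rcases hmin (V ⊓ centralizer ((H ⊓ B : Subgroup G) : Set G)) inf_le_left
      (abl_norm hab inf_le_left h2 ((le_inf le_normalizer_of_normal (nQ.trans
        (Core.normalizer_le_normalizer_centralizer _))).trans
          inf_normalizer_le_normalizer_inf)) with e | e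
    · rw [mem_bot.1 (e ▸ mem_inf.2 ⟨hv, vc⟩ : v ∈ (⊥ : Subgroup G)), one_mul]; exact hh
    · refine absurd (fun b hb => ?_) nc
      obtain ⟨w, hw, k, hk, rfl⟩ := decB b hb
      exact mul_mem (fun a ha => hab a ha w hw) fun a ha => ((e.ge ha).2 k hk).symm

theorem abl {V : Subgroup G} [V.Normal] (hr : r.Prime) (hV : IsPGroup r V)
    (hab : ∀ a ∈ V, ∀ b ∈ V, a * b = b * a) (hmin : ∀ W ≤ V, W.Normal → W = ⊥ ∨ W = V)
    (hx : IsPGroup p (zpowers x)) (hq : QuotientGroup.mk' V x ∈ F2 (G ⧸ V))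
    (hs : ∀ H : Subgroup G, H ≠ ⊤ → x ∈ H → In x H) (h2 : ∀ y, closure {x, y} ≠ ⊤) : x ∈ F2 G := by
  have nV : V.Normal := inferInstance
  have hp : p.Prime := Fact.out
  have nF := Core.fittingSubgroup_normal G
  have := Fact.mk hr
  have VF : V ≤ fittingSubgroup G := Core.le_fittingSubgroup hV.isNilpotent
  set π := QuotientGroup.mk' V with hπ
  have hk : ∀ g, π g = 1 ↔ g ∈ V := fun g => QuotientGroup.eq_one_iff g
  set σ := QuotientGroup.mk' (fittingSubgroup G) with hσ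
  let ρ : G ⧸ V →* G ⧸ fittingSubgroup G :=
    QuotientGroup.lift V σ fun g hg => (QuotientGroup.eq_one_iff g).2 (VF hg)
  have ρπ : ∀ g, ρ (π g) = σ g := fun g => rfl
  have sρ : Function.Surjective ρ := fun y => by
    obtain ⟨g, rfl⟩ := QuotientGroup.mk'_surjective _ y
    exact ⟨π g, rfl⟩
  obtain ⟨A, N, -, -, nA, nN, hA, xN, hN⟩ :=
    (in_top.2 hq).exists_AN (MonoidHom.map_zpowers π x ▸ hx.map π)
  by_contra nx
  have nle : ¬ pResOf p A ≤ comap ρ (centralizer {σ x}) := fun le => by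
    have := (normalizer_eq_top_iff.1 (top_le_iff.1 (le_normalizer_pResOf_of_le (p := p) nA))).map ρ sρ
    have := (normalizer_eq_top_iff.1 (top_le_iff.1 nN)).map ρ sρ
    refine nx (mem_fit_of_cent (p := p) (A := (pResOf p A).map ρ) (N := N.map ρ) ?_
      (mem_map_of_mem ρ xN) ?_)
    · rintro _ ⟨m, hm, rfl⟩
      obtain ⟨k, h1⟩ := hN m hm
      obtain ⟨j, h2⟩ := exists_pow_mem_pResOf (p := p) h1
      exact ⟨k + j, by rw [pow_add, pow_mul, ← map_pow, ← map_pow]; exact mem_map_of_mem ρ h2⟩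
    · rintro _ ⟨a, ha, rfl⟩
      exact mem_centralizer_singleton_iff.1 (le ha)
  rw [pResOf_le_iff] at nle
  push Not at nle
  obtain ⟨g, gA, gc, gK⟩ := nle
  obtain ⟨q, hq, k, dq, dK⟩ : ∃ q : ℕ, q.Prime ∧ ∃ k : ℕ, IsPGroup q (zpowers (g ^ k)) ∧
      g ^ k ∉ comap ρ (centralizer {σ x}) := by
    by_contra! e; exact gK (mem_of_primary e)
  have := Fact.mk hq
  have qp : q ≠ p := fun e => dK (by
    obtain ⟨j, hj⟩ := dq ⟨_, mem_zpowers _⟩
    have h1 : orderOf (g ^ k) ∣ p ^ j := e ▸ orderOf_dvd_of_pow_eq_one (congrArg Subtype.val hj)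
    rw [orderOf_eq_one_iff.1 (Nat.eq_one_of_dvd_coprimes (gc.pow_right j) (orderOf_pow_dvd k) h1)]
    exact one_mem _)
  have dO := mem_core_of_nilp hq hA le_top nA (pow_mem gA k) dq
  rw [pCoreOf_top] at dO
  obtain ⟨d, hd⟩ := QuotientGroup.mk'_surjective V (g ^ k)
  rw [← hd] at dO dK
  have hO := Core.isPGroup_pCore q (G ⧸ V)
  set B := comap π (pCore q (G ⧸ V)) with hB
  have nB : B.Normal := inferInstance
  have dB : d ∈ B := dO
  have VB : V ≤ B := fun v hv => by rw [hB, mem_comap, (hk v).2 hv]; exact one_mem _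
  have cB : d * x * d⁻¹ * x⁻¹ ∈ B := by
    rw [mul_assoc, mul_assoc, ← mul_assoc x]; exact mul_mem dB (nB.conj_mem _ (inv_mem dB) x)
  have cF : d * x * d⁻¹ * x⁻¹ ∉ fittingSubgroup G := fun m => dK (by
    have : σ (d * x * d⁻¹ * x⁻¹) = 1 := (QuotientGroup.eq_one_iff _).2 m
    rw [map_mul, map_mul, map_mul, map_inv, map_inv, mul_inv_eq_one, mul_inv_eq_iff_eq_mul] at this
    exact mem_centralizer_singleton_iff.2 this)
  have qr : q ≠ r := fun e => cF (Core.le_fittingSubgroup (IsPGroup.isNilpotent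
    (hO.comap_of_ker_isPGroup π (by rw [hπ, QuotientGroup.ker_mk', e]; exact hV))) cB)
  have Bq : ∀ b ∈ B, ∃ j, b ^ q ^ j ∈ V := fun b hb => by
    obtain ⟨j, hj⟩ := hO ⟨π b, hb⟩
    exact ⟨j, (hk _).1 (by rw [map_pow]; exact congrArg Subtype.val hj)⟩
  have cC : d * x * d⁻¹ * x⁻¹ ∉ centralizer (V : Set G) := fun m => by
    have := hO.isNilpotent
    refine cF (Core.le_fittingSubgroup (N := B ⊓ centralizer (V : Set G))
      (Subgroup.isNilpotent_of_ker_le_center ((π.comp (B ⊓ centralizer (V : Set G)).subtype).codRestrict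
        (pCore q (G ⧸ V)) fun a => a.2.1) fun a ha => mem_center_iff.2 fun b => Subtype.ext
          (b.2.2 a ((hk _).1 (congrArg Subtype.val ha))).symm) ⟨cB, m⟩)
  have VC : V ≤ centralizer (V : Set G) := fun v hv a ha => hab a ha v hv
  have one : ∀ H : Subgroup G, V ≤ H → x ∈ H → d ∈ H → H = ⊤ := fun H h1 h3 h4 => by
    by_contra ne
    obtain ⟨A, N, AN, NH, nA, nN, hA, xN, hN⟩ := (hs H ne h3).exists_AN hx
    obtain ⟨j, hj⟩ := Bq _ cB
    obtain ⟨i, hi⟩ := hN _ (mul_mem ((mem_normalizer_iff.1 (nN h4) x).1 xN) (inv_mem xN))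
    refine cC (abl_cop (Nat.coprime_pow_primes j i hq hp qp) (VC hj)
      (mem_of_primary fun s hs k hk' => ?_))
    have m := pow_mem (pow_mem cB (p ^ i)) k
    by_cases e : s = q
    · subst e
      exact fun v hv => (core_comm hq hr qr (mem_core_of_nilp hq hA (AN.trans NH) nA (pow_mem hi k) hk')
        (le_pCoreOf hV h1 le_normalizer_of_normal hv)).symm
    · exact VC ((hk _).1 (abl_one hs hq e (hk'.map π) hO (mem_map_of_mem π (mem_zpowers _)) m))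
  have xH : ∀ y : G, x ∈ closure {x, y} := fun y => subset_closure (.inl rfl)
  have yH : ∀ y : G, y ∈ closure {x, y} := fun y => subset_closure (.inr rfl)
  have two := fun v (hv : v ∈ V) => abl_two hq hr qr hV hab hmin VB Bq (fun e => cC (e cB))
    (h2 (v * d)) (one _ le_sup_left (mem_sup_right (xH _))
      ((mul_mem_cancel_left (mem_sup_left hv)).1 (mem_sup_right (yH _))))
  have cm : ∀ u ∈ V, ∀ y, u * y * u⁻¹ * y⁻¹ ∈ V := fun u hu y => by
    rw [mul_assoc, mul_assoc, ← mul_assoc y]; exact mul_mem hu (nV.conj_mem _ (inv_mem hu) y)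
  have sur : ∀ v ∈ V, ∃ u ∈ V ⊓ centralizer {x}, u * d * u⁻¹ * d⁻¹ = v := fun v hv => by
    obtain ⟨-, s1, n1, d1⟩ := two 1 (one_mem V)
    obtain ⟨t2, s2, n2, -⟩ := two v hv
    obtain ⟨b, hb, e⟩ := s1.exists_conj s2
    obtain ⟨u, hu, h, hh, rfl⟩ := d1 b hb
    rw [conjS_mul, conjS_eq_of_mem hh] at e
    have e2 : conjS u (closure {x, 1 * d}) = closure {x, v * d} := by
      rw [← n1, conjS_normalizer, e, n2]
    have a1 := t2 _ (mul_mem (e2 ▸ conj_mem_conjS.2 (xH _)) (inv_mem (xH _))) (cm u hu x)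
    have a2 := t2 _ (mul_mem (e2 ▸ conj_mem_conjS.2 (yH _)) (inv_mem (yH _))) (by
      rw [one_mul, mul_inv_rev, ← mul_assoc]; exact mul_mem (cm u hu d) (inv_mem hv))
    rw [mul_inv_eq_one, mul_inv_eq_iff_eq_mul] at a1
    rw [one_mul, mul_inv_rev, ← mul_assoc, mul_inv_eq_one] at a2
    exact ⟨u, ⟨hu, mem_centralizer_singleton_iff.2 a1⟩, a2⟩
  have e := eq_of_le_of_card_ge (inf_le_left : V ⊓ centralizer {x} ≤ V)
    (Nat.card_le_card_of_surjective (fun u : ↥(V ⊓ centralizer {x}) =>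
      (⟨u * d * (u : G)⁻¹ * d⁻¹, cm u u.2.1 d⟩ : V)) fun v => by
        obtain ⟨u, hu, e⟩ := sur v v.2
        exact ⟨⟨u, hu⟩, Subtype.ext e⟩)
  have xC : x ∈ centralizer (V : Set G) := fun v hv => mem_centralizer_singleton_iff.1 (e.ge hv).2
  exact cC (mul_mem (Normal.conj_mem inferInstance x xC d) (inv_mem xC))

end CfsgLib.F2C
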