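import Cfsg.Agent.Lib.F2C.ApiA

/-!
F2C/API. `F2_map`: `f` induces a surjection `K/F(K) → G/F(G)`. `F2_comap`: `K/f⁻¹F(G) ↪ G/F(G)` and `K/f⁻¹F(G) ↠ K/F(K)`.
`F2_normal`: `F2 N` is characteristic (`F2_map` for automorphisms), its image in `G/F(G)` is the image of the nilpotent `F(N/F(N))`
under `N/F(N) → G/F(G)`. `exists_AN`: `A = F(H)`, `N` = preimage of `O_p(H/F(H))`. `In.gd`: oq: `⟨x, x^n⟩ ≤ N`, `n^(p^k) ∈ A`, so `n ∈ A`,
`mem_core_of_nilp`; fr: `S` Sylow in `N` through `x`, Frattini, `N ≤ A S`, `A ≤ M` by `mem_of_primary` (`O_p(H) ⊓ N ≤ S`).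
`mem_fit_of_cent`: `C = N ⊓ C(A)` is normal, `C → G/A` has central kernel and a `p`-group as image.
-/

set_option autoImplicit false
set_option linter.unusedSectionVars false

namespace CfsgLib.F2C

open Subgroup Cfsg CfsgLib.Tech CfsgLib.W2 CfsgLib.LAE
open scoped commutatorElement

universe u

variable {G : Type u} [Group G] [Finite G] {p q r : ℕ} [Fact p.Prime] {x n c u b : G}
  {H K M R T T' U W : Subgroup G}

theorem mem_of_primary {a : G}
    (h : ∀ q : ℕ, q.Prime → ∀ k : ℕ, IsPGroup q (zpowers (a ^ k)) → a ^ k ∈ K) : a ∈ K := by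
  induction hn : orderOf a using Nat.strong_induction_on generalizing a with
  | _ n ih =>
  by_cases h1 : n = 1
  · rw [orderOf_eq_one_iff.1 (hn.trans h1)]; exact one_mem _
  have n0 : n ≠ 0 := hn ▸ (orderOf_pos a).ne'
  obtain ⟨q, hq, hd⟩ := Nat.exists_prime_and_dvd h1
  obtain ⟨e, m, hm, e1⟩ := Nat.exists_eq_pow_mul_and_not_dvd n0 q hq.ne_one
  have e0 : e ≠ 0 := by
    rintro rfl
    exact hm (by simpa [e1] using hd)
  have m0 : 0 < m := Nat.pos_of_ne_zero fun k => n0 (by rw [e1, k, mul_zero])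
  refine mem_of_coprime_pow (((Nat.Prime.coprime_iff_not_dvd hq).2 hm).pow_left e)
    (ih (orderOf (a ^ q ^ e)) ?_ (fun r hr k hk => ?_) rfl)
    (h q hq m (isPGroup_zpowers_of_pow (k := e) (by rw [← pow_mul, mul_comm, ← e1, ← hn, pow_orderOf_eq_one])))
  · refine (orderOf_le_of_pow_eq_one m0 (by rw [← pow_mul, ← e1, ← hn, pow_orderOf_eq_one])).trans_lt ?_
    rw [e1]
    exact lt_mul_of_one_lt_left m0 (Nat.one_lt_pow e0 hq.one_lt)
  · rw [← pow_mul] at hk ⊢
    exact h r hr _ hk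

theorem mem_core_of_nilp (hq : q.Prime) {A : Subgroup G} (hA : Group.IsNilpotent A) (h1 : A ≤ H)
    (h2 : H ≤ normalizer (A : Set G)) {a : G} (ha : a ∈ A) (h3 : IsPGroup q (zpowers a)) :
    a ∈ pCoreOf q H := by
  obtain ⟨b, hb, rfl⟩ := Core.le_map_fittingSubgroup h1 h2 hA ha
  obtain ⟨k, hk⟩ := isPGroup_iff_mem.1 h3 _ (mem_zpowers _)
  exact ⟨b, Core.le_pCore_of_le_fittingSubgroup (zpowers_le.2 hb)
    (isPGroup_zpowers_of_pow (k := k) (Subtype.ext hk)) (mem_zpowers b), rfl⟩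

theorem core_comm (hq : q.Prime) (hr : r.Prime) (hqr : q ≠ r) {a b : G} (ha : a ∈ pCoreOf q H)
    (hb : b ∈ pCoreOf r H) : a * b = b * a := by
  haveI := Fact.mk hq
  haveI := Fact.mk hr
  haveI := Core.isNilpotent_map_fittingSubgroup H
  exact (Core.le_centralizer_of_coprime_of_le_isNilpotent (N := (fittingSubgroup H).map H.subtype)
    (map_mono (Core.pCore_le_fittingSubgroup hq)) (map_mono (Core.pCore_le_fittingSubgroup hr))
    (IsPGroup.coprime_card_of_ne q r hqr _ _ (isPGroup_pCoreOf H) (isPGroup_pCoreOf H)) ha b hb).symm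

theorem In.exists_AN (h : In x H) (hx : IsPGroup p (zpowers x)) :
    ∃ A N : Subgroup G, A ≤ N ∧ N ≤ H ∧ H ≤ normalizer (A : Set G) ∧ H ≤ normalizer (N : Set G) ∧
      Group.IsNilpotent A ∧ x ∈ N ∧ ∀ n ∈ N, ∃ k, n ^ p ^ k ∈ A := by
  obtain ⟨hH, h⟩ := h
  haveI := Core.fittingSubgroup_normal H
  obtain ⟨k, hk⟩ := isPGroup_iff_mem.1 hx _ (mem_zpowers _)
  refine ⟨(fittingSubgroup H).map H.subtype,
    ((pCore p (H ⧸ fittingSubgroup H)).comap (QuotientGroup.mk' (fittingSubgroup H))).map H.subtype,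
    map_mono fun y hy => ?_, map_subtype_le _, Core.le_normalizer_map_subtype_of_normal _,
    Core.le_normalizer_map_subtype_of_normal _, Core.isNilpotent_map_fittingSubgroup H, ⟨⟨x, hH⟩, ?_, rfl⟩, ?_⟩
  · rw [mem_comap, QuotientGroup.mk'_apply, (QuotientGroup.eq_one_iff y).2 hy]
    exact one_mem _
  · exact Core.le_pCore_of_le_fittingSubgroup (zpowers_le.2 h) (isPGroup_zpowers_of_pow (k := k) (by
      rw [← map_pow, show (⟨x, hH⟩ : H) ^ p ^ k = 1 from Subtype.ext hk, map_one])) (mem_zpowers _)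
  · rintro _ ⟨y, hy, rfl⟩
    obtain ⟨j, hj⟩ := isPGroup_iff_mem.1 isPGroup_pCore _ hy
    exact ⟨j, y ^ p ^ j, (QuotientGroup.eq_one_iff _).1 hj, rfl⟩

theorem In.gd (h : In x H) (hx : IsPGroup p (zpowers x)) : Gd p x H := by
  obtain ⟨A, N, h1, h2, h3, h4, h5, h6, h7⟩ := h.exists_AN hx
  refine ⟨h.1, fun q hq hqp n hn hs h8 => ?_, ?_⟩
  · have hN : n ∈ N := (closure_le N).2 (by
      rintro _ (rfl | rfl)
      · exact h6
      · simpa using (mem_normalizer_iff.1 (h4 (inv_mem hn)) x).1 h6) hs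
    obtain ⟨k, hk⟩ := h7 n hN
    obtain ⟨j, hj⟩ := isPGroup_iff_mem.1 h8 _ (mem_zpowers _)
    exact mem_core_of_nilp hq h5 (h1.trans h2) h3 (mem_of_coprime_pow
      (((Nat.coprime_primes hq Fact.out).2 hqp).pow j k) (by rw [hj]; exact one_mem _) hk) h8
  · obtain ⟨S, hS, hxS⟩ := LAE.exists_isSylowIn_ge hx (zpowers_le.2 h6)
    refine ⟨S, hS.isPGroup, hxS (mem_zpowers x), hS.le.trans h2, fun M k1 k2 => ?_⟩
    have SM : S ≤ M := (le_inf (hS.le.trans h2) le_normalizer).trans k2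
    have AM : A ≤ M := fun a ha => mem_of_primary fun q hq k hk => by
      have := mem_core_of_nilp hq h5 (h1.trans h2) h3 (pow_mem ha k) hk
      by_cases e : q = p
      · subst e
        exact SM (hS.pCoreOf_le (inf_pCoreOf_le h2 (mem_inf.2 ⟨h1 (pow_mem ha k), this⟩)))
      · exact k1 q hq e this
    have NM : N ≤ M := hS.le_of_pResOf_le
      (pResOf_le_of_forall_pow_mem fun g hg => (h7 g hg).imp fun _ k => AM k) SM
    exact (hS.frattini_sup h2 h4).ge.trans (sup_le NM k2)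

theorem mem_fit_of_cent {A N : Subgroup G} [A.Normal] [N.Normal] (h : ∀ n ∈ N, ∃ k, n ^ p ^ k ∈ A)
    (hx : x ∈ N) (hc : ∀ a ∈ A, a * x = x * a) : x ∈ fittingSubgroup G := by
  let f : (N ⊓ centralizer (A : Set G) : Subgroup G) →* G ⧸ A := (QuotientGroup.mk' A).comp (Subgroup.subtype _)
  have hp : IsPGroup p f.range := isPGroup_iff_mem.2 (by
    rintro _ ⟨y, rfl⟩
    obtain ⟨k, hk⟩ := h y (mem_inf.1 y.2).1
    exact ⟨k, by rw [← map_pow]; exact (QuotientGroup.eq_one_iff _).2 hk⟩)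
  haveI := hp.isNilpotent
  refine Core.le_fittingSubgroup (N := N ⊓ centralizer (A : Set G))
    (Subgroup.isNilpotent_of_ker_le_center f.rangeRestrict fun y hy => mem_center_iff.2 fun g => Subtype.ext ?_)
    (mem_inf.2 ⟨hx, hc⟩)
  exact ((mem_inf.1 g.2).2 y ((QuotientGroup.eq_one_iff _).1 (congrArg Subtype.val hy))).symm


end CfsgLib.F2C
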