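import Cfsg.Agent.Lib.F2C.Defs

/-!
F2C/API. `F2_map`: `f` induces a surjection `K/F(K) → G/F(G)`. `F2_comap`: `K/f⁻¹F(G) ↪ G/F(G)` and `K/f⁻¹F(G) ↠ K/F(K)`.
`F2_normal`: `F2 N` is characteristic (`F2_map` for automorphisms), its image in `G/F(G)` is the image of the nilpotent `F(N/F(N))`
under `N/F(N) → G/F(G)`. `exists_AN`: `A = F(H)`, `N` = preimage of `O_p(H/F(H))`. `In.gd`: oq: `⟨x, x^n⟩ ≤ N`, `n^(p^k) ∈ A`, so `n ∈ A`,
`mem_core_of_nilp`; fr: `S` Sylow in `N` through `x`, Frattini, `N ≤ A S`, `A ≤ M` by `mem_of_primary` (`O_p(H) ⊓ N ≤ S`).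
`mem_fit_of_cent`: `C = N ⊓ C(A)` is normal, `C → G/A` has central kernel and a `p`-group as image.
-/

set_option autoImplicit false
set_option linter.unusedSectionVars false

namespace CfsgLib.F2C

open Subgroup Cfsg CfsgLib.Tech CfsgLib.W2 CfsgLib.LAE
open scoped commutatorElement

universe u

variable {G : Type u} [Group G] [Finite G] {p q r : ℕ} [Fact p.Prime] {x n c u b : G}
  {H K M R T T' U W : Subgroup G}

theorem apia_normal : (F2 G).Normal := by
  have := Core.fittingSubgroup_normal G
  have := Core.fittingSubgroup_normal (G ⧸ fittingSubgroup G)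
  exact Normal.comap inferInstance _

theorem apia_lcs : ∃ k, (F2 G).lowerCentralSeries k ≤ fittingSubgroup G := by
  have := Core.fittingSubgroup_normal G
  obtain ⟨k, hk⟩ := (isNilpotent_iff_lowerCentralSeries _).1
    (Core.isNilpotent_fittingSubgroup (G ⧸ fittingSubgroup G))
  refine ⟨k, (QuotientGroup.ker_mk' (fittingSubgroup G)).symm.ge.trans' ?_⟩
  rw [← Subgroup.map_eq_bot_iff, map_lowerCentralSeries, F2, map_comap_eq_self_of_surjective (QuotientGroup.mk'_surjective _),
    hk]

theorem apia_le {N : Subgroup G} (hN : N.Normal) {k : ℕ} (h : N.lowerCentralSeries k ≤ fittingSubgroup G) :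
    N ≤ F2 G := by
  have := Core.fittingSubgroup_normal G
  have := hN.map _ (QuotientGroup.mk'_surjective (fittingSubgroup G))
  rw [F2, ← map_le_iff_le_comap]
  refine Core.le_fittingSubgroup (isNilpotent_of_lowerCentralSeries_eq_bot (n := k) ?_)
  rwa [← map_lowerCentralSeries, Subgroup.map_eq_bot_iff, QuotientGroup.ker_mk']

section hom
variable {L : Type u} [Group L] [Finite L]

theorem F2_map (f : L →* G) (hf : Function.Surjective f) {y : L} (h : y ∈ F2 L) : f y ∈ F2 G := by
  obtain ⟨k, hk⟩ := apia_lcs (G := L)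
  exact apia_le (apia_normal.map f hf) (k := k) (by
    rw [← map_lowerCentralSeries]; exact (map_mono hk).trans (Core.map_fittingSubgroup_le hf)) (mem_map_of_mem f h)

theorem F2_comap (f : L →* G) (hf : Function.Injective f) {y : L} (h : f y ∈ F2 G) : y ∈ F2 L := by
  obtain ⟨k, hk⟩ := apia_lcs (G := G)
  have := Core.fittingSubgroup_normal G
  have := Core.isNilpotent_fittingSubgroup G
  refine apia_le (apia_normal.comap f) (k := k) (le_trans (b := (fittingSubgroup G).comap f) ?_
    (Core.le_fittingSubgroup (Core.isNilpotent_comap_of_ker_le_center f ?_ _))) h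
  · rw [← map_le_iff_le_comap, map_lowerCentralSeries]
    exact (lowerCentralSeries_mono k (map_comap_le _ _)).trans hk
  · rw [(MonoidHom.ker_eq_bot_iff f).2 hf]; exact bot_le

theorem F2_normal (N : Subgroup G) [N.Normal] {y : N} (h : y ∈ F2 N) : (y : G) ∈ F2 G := by
  obtain ⟨k, hk⟩ := apia_lcs (G := N)
  have : (F2 N).Characteristic := characteristic_iff_map_le.2 fun e _ ⟨_, hz, e1⟩ =>
    e1 ▸ F2_map e.toMonoidHom e.surjective hz
  have := Core.map_fittingSubgroup_normal N
  refine apia_le (N := (F2 N).map N.subtype) inferInstance (k := k) ?_ (mem_map_of_mem _ h)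
  rw [← map_lowerCentralSeries]
  exact (map_mono hk).trans (Core.le_fittingSubgroup (Core.isNilpotent_map_fittingSubgroup N))

theorem F2_eq_bot (h : fittingSubgroup G = ⊥) : F2 G = ⊥ := by
  obtain ⟨k, hk⟩ := apia_lcs (G := G)
  have := apia_normal (G := G)
  rw [h, le_bot_iff] at hk
  exact le_bot_iff.1 (h ▸ Core.le_fittingSubgroup (isNilpotent_of_lowerCentralSeries_eq_bot hk))

theorem in_top : In x ⊤ ↔ x ∈ F2 G := by
  exact ⟨fun ⟨_, h⟩ => F2_normal ⊤ h, fun h => ⟨mem_top x, F2_comap (⊤ : Subgroup G).subtype (subtype_injective _) h⟩⟩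

theorem In.mono (h : In x H) (hx : x ∈ K) (hK : K ≤ H) : In x K := by
  exact ⟨hx, F2_comap (inclusion hK) (inclusion_injective hK) h.2⟩

theorem In.pow (h : In x H) (k : ℕ) : In (x ^ k) H := by
  exact ⟨pow_mem h.1 k, pow_mem h.2 k⟩

theorem In.map (h : In x H) (f : G →* L) : In (f x) (H.map f) := by
  exact ⟨mem_map_of_mem f h.1, F2_map (f.subgroupMap H) (f.subgroupMap_surjective H) h.2⟩

theorem In.normal (h : In x H) (hH : H.Normal) : x ∈ F2 G := by
  exact F2_normal H h.2

theorem Star.pow (h : Star x) (k : ℕ) : Star (x ^ k) := by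
  intro y
  have hx : x ∈ closure {x, y} := subset_closure (by simp)
  refine ((h y).pow k).mono (subset_closure (by simp)) ((closure_le _).2 ?_)
  rintro _ (rfl | rfl)
  exacts [pow_mem hx k, subset_closure (by simp)]

theorem Star.sub (h : Star x) (hx : x ∈ K) : Star (⟨x, hx⟩ : K) := by
  intro y
  have e : (closure {(⟨x, hx⟩ : K), y}).map K.subtype = closure {x, (y : G)} := by
    rw [MonoidHom.map_closure, Set.image_pair]; rfl
  have h1 := h y
  rw [← e] at h1
  exact ⟨subset_closure (by simp), F2_comap (K.subtype.subgroupMap _)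
    (fun a b e => by
      have e' := Subtype.ext_iff.1 e
      exact Subtype.ext (Subtype.ext e')) h1.2⟩

theorem Star.map (h : Star x) (f : G →* L) (hf : Function.Surjective f) : Star (f x) := by
  intro y
  obtain ⟨y, rfl⟩ := hf y
  have := (h y).map f
  rwa [MonoidHom.map_closure, Set.image_pair] at this


end hom

end CfsgLib.F2C
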