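import Cfsg.Agent.Lib.LAE.Cores
import Cfsg.Agent.Lib.W2.Tools
import Cfsg.Agent.Lib.Core.Fitting
import Cfsg.Agent.Lib.Coprime.Generation
import Cfsg.Agent.Lib.Coprime.Abelian

/-!
# The second Fitting subgroup and two-generated subgroups: definitions
-/

set_option autoImplicit false
set_option linter.unusedSectionVars false

namespace CfsgLib.F2C

open Subgroup Cfsg CfsgLib.Tech CfsgLib.W2 CfsgLib.LAE
open scoped commutatorElement

universe u

/-- the second Fitting subgroup -/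
def F2 (G : Type u) [Group G] : Subgroup G :=
  haveI := Core.fittingSubgroup_normal G
  (fittingSubgroup (G ⧸ fittingSubgroup G)).comap (QuotientGroup.mk' (fittingSubgroup G))

variable {G : Type u} [Group G]

/-- `x ∈ F₂(H)` -/
def In (x : G) (H : Subgroup G) : Prop := ∃ hx : x ∈ H, (⟨x, hx⟩ : H) ∈ F2 H

/-- `x ∈ F₂(⟨x, y⟩)` for all `y` -/
def Star (x : G) : Prop := ∀ y, In x (closure {x, y})

/-- special elements: `n ∈ ⟨x, x ^ n⟩` -/
def Sp (x n : G) : Prop := n ∈ closure {x, n⁻¹ * x * n}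

/-- members: `q`-groups `T = [T, x]` -/
structure Mem (q : ℕ) (x : G) (T : Subgroup G) : Prop where
  pg : IsPGroup q T
  nx : x ∈ normalizer (T : Set G)
  cm : ⁅T, zpowers x⁆ = T

/-- the join of all members -/
def Uq (q : ℕ) (x : G) : Subgroup G := sSup {T | Mem q x T}

/-- the consequences of `x ∈ F₂(H)` for a `p`-element `x` -/
structure Gd (p : ℕ) (x : G) (H : Subgroup G) : Prop where
  mem : x ∈ H
  oq : ∀ q : ℕ, q.Prime → q ≠ p → ∀ n ∈ H, Sp x n → IsPGroup q (zpowers n) → n ∈ pCoreOf q H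
  fr : ∃ S : Subgroup G, IsPGroup p S ∧ x ∈ S ∧ S ≤ H ∧ ∀ M : Subgroup G,
    (∀ q : ℕ, q.Prime → q ≠ p → pCoreOf q H ≤ M) → H ⊓ normalizer (S : Set G) ≤ M → H ≤ M

/-- the minimal counterexample with trivial Fitting subgroup -/
structure Hyp (p : ℕ) (x : G) : Prop where
  ord : orderOf x = p
  core : ∀ q : ℕ, q.Prime → ∀ I : Subgroup G, IsPGroup q I → I ≠ ⊥ → normalizer (I : Set G) ≠ ⊤
  nrm : ∀ N : Subgroup G, x ∈ N → normalizer (N : Set G) = ⊤ → N = ⊤
  two : ∀ y, closure {x, y} ≠ ⊤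
  gd : ∀ H : Subgroup G, H ≠ ⊤ → x ∈ H → Gd p x H

/-- a maximal member: normalised by `N(⟨x⟩)`, contains the members which meet it -/
structure QU (q : ℕ) (x : G) (U : Subgroup G) : Prop extends Mem q x U where
  nP : normalizer (zpowers x : Set G) ≤ normalizer (U : Set G)
  ti : ∀ T, Mem q x T → T ⊓ U ≠ ⊥ → T ≤ U

/-- every nontrivial member lies in a `QU` -/
def HQ (p : ℕ) (x : G) : Prop :=
  ∀ q : ℕ, q.Prime → q ≠ p → ∀ T, Mem q x T → T ≠ ⊥ → ∃ U, QU q x U ∧ T ≤ U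

end CfsgLib.F2C
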