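import Cfsg.Agent.Lib.F2C.KitA

/-!
F2C/KIT. `P = ⟨x⟩`. `exists_sp`: `Y = ⟨x, u⁻¹ x u⟩`, `R₀ = Y ⊓ R`; `P` permutes the coset `u R₀`, so it has a fixed point `c = u m`
(or `Coprime.exists_mul_centralizer_of_commutator_le`); `n = m⁻¹`. `Sp.mem_comm`: `Y ≤ [R,P] P`, `R ⊓ P = 1`. `Mem.le_of_sp`: generators `⁅u, y⁆`, `u⁻¹ = c n`, `⁅u, y⁆ = n⁻¹ (y n y⁻¹)`.
`lemA`: `H = ⟨x, c n⟩`. `mi`: induction on the index of `I = R₁ ⊓ R₂`; `H = N(I)`. `exists_mem`: otherwise, for `H = ⟨x, g⟩`, all `O_q(H) ≤ C(x)` (`mem_comm`); `A = ⨆ O_q(H)` (`q ≠ p`), `S₀ = S ⊓ C(A) ∋ x`, `fr` with `M = N(S₀)`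
gives `g x g⁻¹ ∈ S₀`; then `bs` with `K = ⊤` and `core`.
-/

set_option autoImplicit false
set_option linter.unusedSectionVars false

namespace CfsgLib.F2C

open Subgroup Cfsg CfsgLib.Tech CfsgLib.W2 CfsgLib.LAE
open scoped commutatorElement

universe u

variable {G : Type u} [Group G] [Finite G] {p q r : ℕ} [Fact p.Prime] {x n c u b : G}
  {H K M R T T' U W : Subgroup G}

theorem kit_norm (hx : x ∈ normalizer (R : Set G)) :
    zpowers x ≤ normalizer ((⁅R, zpowers x⁆ : Subgroup G) : Set G) :=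
  Coprime.le_normalizer_of_commutator_le (comm_le hx) le_rfl

section cop
variable (ho : orderOf x = p) (hq : q.Prime) (hqp : q ≠ p)
include ho hq hqp

theorem cop (hR : IsPGroup q R) : (Nat.card (zpowers x)).Coprime (Nat.card R) := by
  have : Fact q.Prime := ⟨hq⟩
  rw [Nat.card_zpowers, ho]
  exact Coprime.coprime_card_of_isPGroup hR ((Nat.coprime_primes Fact.out hq).2 hqp.symm)

theorem exists_sp (hR : IsPGroup q R) (hx : x ∈ normalizer (R : Set G)) (hu : u ∈ R) :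
    ∃ c ∈ R, ∃ n ∈ R, c * x = x * c ∧ Sp x n ∧ u = c * n := by
  have xY : x ∈ closure ({x, u⁻¹ * x * u} : Set G) := subset_closure (by simp)
  have uY : u⁻¹ * x * u ∈ closure ({x, u⁻¹ * x * u} : Set G) := subset_closure (by simp)
  have hn : zpowers x ≤ normalizer ((closure ({x, u⁻¹ * x * u} : Set G) ⊓ R : Subgroup G) : Set G) :=
    zpowers_le.2 (mem_normalizer_fintype fun y hy => mem_inf.2
      ⟨mul_mem (mul_mem xY (mem_inf.1 hy).1) (inv_mem xY), (mem_normalizer_iff.1 hx y).1 (mem_inf.1 hy).2⟩)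
  obtain ⟨m, hm, hc⟩ := Coprime.exists_mul_mem_centralizer hn
    (Coprime.coprime_of_le (cop ho hq hqp hR) le_rfl inf_le_right) (Or.inl (Coprime.isSolvable_zpowers x)) u
    (fun a ha => by
      refine mem_inf.2 ⟨?_, mul_mem (inv_mem hu) ((mem_normalizer_iff.1 (zpowers_le.2 hx ha) u).1 hu)⟩
      obtain ⟨k, rfl⟩ := ha
      have e : u⁻¹ * (x ^ k * u * (x ^ k)⁻¹) = (u⁻¹ * x * u⁻¹⁻¹) ^ k * (x ^ k)⁻¹ := by
        rw [conj_zpow]; group
      show u⁻¹ * (x ^ k * u * (x ^ k)⁻¹) ∈ _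
      rw [e, inv_inv]
      exact mul_mem (zpow_mem uY k) (inv_mem (zpow_mem xY k)))
  have e : x * (u * m) = u * m * x := hc x (mem_zpowers x)
  replace hm := mem_inf.1 hm
  refine ⟨u * m, mul_mem hu hm.2, m⁻¹, inv_mem hm.2, e.symm, ?_, by group⟩
  have e2 : m⁻¹⁻¹ * x * m⁻¹ = u⁻¹ * x * u := by
    calc m⁻¹⁻¹ * x * m⁻¹ = u⁻¹ * (u * m * x) * m⁻¹ := by group
      _ = u⁻¹ * x * u := by rw [← e]; group
  rw [Sp, e2]
  exact inv_mem hm.1

theorem Sp.mem_comm (h : Sp x n) (hR : IsPGroup q R) (hx : x ∈ normalizer (R : Set G)) (hn : n ∈ R) :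
    n ∈ ⁅R, zpowers x⁆ := by
  have h1 : closure ({x, n⁻¹ * x * n} : Set G) ≤ ⁅R, zpowers x⁆ ⊔ zpowers x := by
    rw [closure_le]
    rintro y (rfl | rfl)
    · exact mem_sup_right (mem_zpowers _)
    · rw [SetLike.mem_coe, show n⁻¹ * x * n = ⁅n⁻¹, x⁆ * x by rw [commutatorElement_def]; group]
      exact mul_mem (mem_sup_left (commutator_mem_commutator (inv_mem hn) (mem_zpowers x)))
        (mem_sup_right (mem_zpowers x))
  obtain ⟨d, hd, a, ha, e⟩ := (mem_sup_iff_of_right_le_normalizer (kit_norm hx)).1 (h1 h)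
  have aR : a ∈ R := by
    rw [show a = d⁻¹ * n by rw [e]; group]
    exact mul_mem (inv_mem (comm_le hx hd)) hn
  have : a ∈ zpowers x ⊓ R := ⟨ha, aR⟩
  rw [(disjoint_of_coprime_natCard (cop ho hq hqp hR)).eq_bot, mem_bot] at this
  rw [e, this, mul_one]
  exact hd

theorem Sp.eq_one (h : Sp x n) (hn : IsPGroup q (zpowers n)) (hc : n * x = x * n) : n = 1 := by
  have h1 : zpowers n ≤ Cx x := zpowers_le.2 (mem_Cx.2 hc)
  have hx : x ∈ normalizer (zpowers n : Set G) := mem_normalizer_fintype fun y hy => by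
    rw [← mem_Cx.1 (h1 hy), mul_inv_cancel_right]; exact hy
  have := h.mem_comm ho hq hqp hn hx (mem_zpowers n)
  rwa [comm_eq_bot.2 h1, mem_bot] at this

theorem Mem.le_of_sp (h : Mem q x T) (hK : ∀ n ∈ T, Sp x n → n ∈ K) : T ≤ K := by
  rw [← h.cm, commutator_le]
  intro v hv y hy
  obtain ⟨c, -, n, hn, hc, sp, e⟩ := exists_sp ho hq hqp h.pg h.nx (inv_mem hv)
  have yx : y * x * y⁻¹ = x := by
    obtain ⟨k, rfl⟩ := hy
    show x ^ k * x * (x ^ k)⁻¹ = x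
    group
  have cy : c * y = y * c := by
    obtain ⟨k, rfl⟩ := hy
    exact (Commute.zpow_right hc k).eq
  have e2 : ⁅v, y⁆ = n⁻¹ * (y * n * y⁻¹) := by
    calc ⁅v, y⁆ = (v⁻¹)⁻¹ * y * v⁻¹ * y⁻¹ := by rw [commutatorElement_def, inv_inv]
      _ = n⁻¹ * c⁻¹ * (y * c) * n * y⁻¹ := by rw [e]; group
      _ = _ := by rw [← cy]; group
  have sp' := sp.conj y
  rw [yx] at sp'
  rw [e2]
  exact mul_mem (inv_mem (hK n hn sp)) (hK _ ((mem_normalizer_iff.1 (zpowers_le.2 h.nx hy) n).1 hn) sp')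

theorem mem_comm (hR : IsPGroup q R) (hx : x ∈ normalizer (R : Set G)) : Mem q x ⁅R, zpowers x⁆ := by
  exact ⟨hR.to_le (comm_le hx), kit_norm hx (mem_zpowers x),
    Coprime.commutator_commutator_eq (zpowers_le.2 hx) (cop ho hq hqp hR)⟩

theorem le_of_comm (hR : IsPGroup q R) (hx : x ∈ normalizer (R : Set G)) (h1 : ⁅R, zpowers x⁆ ≤ M)
    (h2 : R ⊓ Cx x ≤ M) : R ≤ M := by
  intro v hv
  obtain ⟨c, h3, n, hn, hc, sp, rfl⟩ := exists_sp ho hq hqp hR hx hv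
  exact mul_mem (h2 ⟨h3, mem_Cx.2 hc⟩) (h1 (sp.mem_comm ho hq hqp hR hx hn))

theorem exists_sp_ne (hR : IsPGroup q R) (hx : x ∈ normalizer (R : Set G)) (h : ¬ R ≤ Cx x) :
    ∃ n ∈ R, Sp x n ∧ n ≠ 1 := by
  obtain ⟨v, hv, h1⟩ := SetLike.not_le_iff_exists.1 h
  obtain ⟨c, -, n, hn, hc, sp, rfl⟩ := exists_sp ho hq hqp hR hx hv
  refine ⟨n, hn, sp, ?_⟩
  rintro rfl
  exact h1 (by rw [mul_one]; exact mem_Cx.2 hc)

theorem Gd.mem_le (g : Gd p x H) (hT : Mem q x T) (hH : T ≤ H) : T ≤ pCoreOf q H := by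
  exact hT.le_of_sp ho hq hqp fun n hn sp => g.oq q hq hqp n (hH hn) sp (hT.pg.to_le (zpowers_le.2 hn))

theorem Gd.comm_le (g : Gd p x H) (hR : IsPGroup q R) (hx : x ∈ normalizer (R : Set G)) (hH : R ≤ H) :
    ⁅R, zpowers x⁆ ≤ ⁅pCoreOf q H, zpowers x⁆ := by
  have m := mem_comm ho hq hqp hR hx
  exact m.le_comm (g.mem_le ho hq hqp m ((F2C.comm_le hx).trans hH))

end cop

theorem Gd.le_of (g : Gd p x H) (ho : orderOf x = p) :
    ∃ S : Subgroup G, IsPGroup p S ∧ x ∈ S ∧ S ≤ H ∧ ∀ M : Subgroup G, H ⊓ Cx x ≤ M →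
      (∀ q : ℕ, q.Prime → q ≠ p → ∀ T, Mem q x T → T ≤ H → T ≤ M) →
      H ⊓ normalizer (S : Set G) ≤ M → H ≤ M := by
  obtain ⟨S, h1, h2, h3, h4⟩ := g.fr
  refine ⟨S, h1, h2, h3, fun M k1 k2 k3 => h4 M (fun q hq hqp => ?_) k3⟩
  have hx : x ∈ normalizer (pCoreOf q H : Set G) := le_normalizer_pCoreOf H g.mem
  exact le_of_comm ho hq hqp (isPGroup_pCoreOf H) hx
    (k2 q hq hqp _ (mem_comm ho hq hqp (isPGroup_pCoreOf H) hx) ((F2C.comm_le hx).trans (pCoreOf_le H)))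
    ((inf_le_inf_right _ (pCoreOf_le H)).trans k1)

theorem Hyp.exists_mem (h : Hyp p x) : ∃ q : ℕ, q.Prime ∧ q ≠ p ∧ ∃ T, Mem q x T ∧ T ≠ ⊥ := by
  by_contra hn
  push Not at hn
  have hp : p.Prime := Fact.out
  have key : x ∈ pCoreOf p (⊤ : Subgroup G) := by
    refine bs hp (mem_top x) fun g _ => ?_
    have xH : x ∈ closure ({x, g} : Set G) := subset_closure (by simp)
    have gH : g ∈ closure ({x, g} : Set G) := subset_closure (by simp)
    have gd := h.gd _ (h.two g) xH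
    generalize closure ({x, g} : Set G) = H at xH gH gd
    obtain ⟨S, h1, h2, h3, h4⟩ := gd.fr
    let S₀ : Subgroup G := S ⊓ ⨅ q : ℕ, ⨅ _ : q.Prime ∧ q ≠ p, centralizer (pCoreOf q H : Set G)
    have m0 : ∀ s, s ∈ S₀ ↔ s ∈ S ∧ ∀ q : ℕ, q.Prime → q ≠ p → ∀ a ∈ pCoreOf q H, a * s = s * a := fun s => by
      simp only [S₀, mem_inf, mem_iInf, mem_centralizer_iff, and_imp, SetLike.mem_coe]
    have x0 : x ∈ S₀ := (m0 x).2 ⟨h2, fun q hq hqp a ha => mem_Cx.1 (comm_eq_bot.1 (hn q hq hqp _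
      (mem_comm h.ord hq hqp (isPGroup_pCoreOf H) (le_normalizer_pCoreOf H xH))) ha)⟩
    have hle : H ≤ normalizer (S₀ : Set G) := by
      refine h4 _ (fun q hq hqp a ha => mem_normalizer_fintype fun s hs => ?_)
        fun a ha => mem_normalizer_fintype fun s hs => ?_
      · rw [((m0 s).1 hs).2 q hq hqp a ha, mul_inv_cancel_right]; exact hs
      · refine (m0 _).2 ⟨(mem_normalizer_iff.1 ha.2 s).1 ((m0 s).1 hs).1, fun q hq hqp b hb => ?_⟩
        have := ((m0 s).1 hs).2 q hq hqp _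
          ((mem_normalizer_iff.1 (le_normalizer_pCoreOf H (inv_mem ha.1)) b).1 hb)
        calc b * (a * s * a⁻¹) = a * (a⁻¹ * b * a⁻¹⁻¹ * s) * a⁻¹ := by group
          _ = _ := by rw [this]; group
    exact ⟨S₀, h1.to_le inf_le_left, x0, (mem_normalizer_iff.1 (hle gH) x).1 x0⟩
  refine h.core p hp _ (isPGroup_pCoreOf ⊤) (fun e => ?_) (top_le_iff.1 (le_normalizer_pCoreOf ⊤))
  rw [e, mem_bot] at key
  have := h.ord
  rw [key, orderOf_one] at this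
  exact hp.one_lt.ne this

end CfsgLib.F2C
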