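import Cfsg.Agent.Lib.F2C.Api
import Cfsg.Agent.S0199

/-!
F2C/KIT. `P = ⟨x⟩`. `exists_sp`: `Y = ⟨x, u⁻¹ x u⟩`, `R₀ = Y ⊓ R`; `P` permutes the coset `u R₀`, so it has a fixed point `c = u m`
(or `Coprime.exists_mul_centralizer_of_commutator_le`); `n = m⁻¹`. `Sp.mem_comm`: `Y ≤ [R,P] P`, `R ⊓ P = 1`. `Mem.le_of_sp`: generators `⁅u, y⁆`, `u⁻¹ = c n`, `⁅u, y⁆ = n⁻¹ (y n y⁻¹)`.
`lemA`: `H = ⟨x, c n⟩`. `mi`: induction on the index of `I = R₁ ⊓ R₂`; `H = N(I)`. `exists_mem`: otherwise, for `H = ⟨x, g⟩`, all `O_q(H) ≤ C(x)` (`mem_comm`); `A = ⨆ O_q(H)` (`q ≠ p`), `S₀ = S ⊓ C(A) ∋ x`, `fr` with `M = N(S₀)`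
gives `g x g⁻¹ ∈ S₀`; then `bs` with `K = ⊤` and `core`.
-/

set_option autoImplicit false
set_option linter.unusedSectionVars false

namespace CfsgLib.F2C

open Subgroup Cfsg CfsgLib.Tech CfsgLib.W2 CfsgLib.LAE
open scoped commutatorElement

universe u

variable {G : Type u} [Group G] [Finite G] {p q r : ℕ} [Fact p.Prime] {x n c u b : G}
  {H K M R T T' U W : Subgroup G}

theorem kita_le (hx : x ∈ normalizer (R : Set G)) : ⁅R, zpowers x⁆ ≤ R :=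
  commutator_le.2 fun a ha b hb => by
    rw [commutatorElement_def, mul_assoc, mul_assoc, ← mul_assoc b]
    exact mul_mem ha (Tech.conj_mem_of_mem_normalizer (zpowers_le.2 hx hb) (inv_mem ha))

theorem Sp.conj (h : Sp x n) (g : G) : Sp (g * x * g⁻¹) (g * n * g⁻¹) := by
  have := (conj_mem_cj (g := g)).2 h
  rw [cj, MonoidHom.map_closure, Set.image_pair] at this
  unfold Sp
  rw [show (g * n * g⁻¹)⁻¹ * (g * x * g⁻¹) * (g * n * g⁻¹) = g * (n⁻¹ * x * n) * g⁻¹ by group]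
  exact this

theorem Mem.conj (h : Mem q x T) (g : G) : Mem q (g * x * g⁻¹) (cj g T) := by
  refine ⟨isPGroup_cj g h.pg, ?_, ?_⟩
  · rw [← cj_normalizer]
    exact conj_mem_cj.2 h.nx
  · rw [← cj_zpowers, ← cj_commutator, h.cm]

theorem Mem.cj (h : Mem q x T) (hc : c ∈ normalizer (zpowers x : Set G)) : Mem q x (cj c T) := by
  refine ⟨isPGroup_cj c h.pg, ?_, ?_⟩
  · rw [← cj_normalizer, mem_cj]
    exact zpowers_le.2 h.nx (conj_mem_of_mem_normalizer' hc (mem_zpowers x))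
  · conv_lhs => rw [← mem_normalizer_iff_cj.1 hc, ← cj_commutator, h.cm]

theorem Gd.conj (h : Gd p x H) (g : G) : Gd p (g * x * g⁻¹) (cj g H) := by
  obtain ⟨S, s1, s2, s3, s4⟩ := h.fr
  have e : ∀ q : ℕ, cj g (pCoreOf q H) = pCoreOf q (cj g H) := fun q => conjS_pCoreOf g H
  refine ⟨conj_mem_cj.2 h.mem, fun q hq hp n hn h1 h2 => ?_, cj g S, isPGroup_cj g s1, conj_mem_cj.2 s2,
    cj_mono g s3, fun M m1 m2 => ?_⟩
  · obtain ⟨m, hm, rfl⟩ := hn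
    have h3 := h1.conj g⁻¹
    have h4 := isPGroup_cj g⁻¹ h2
    rw [cj_zpowers] at h4
    have e1 : g⁻¹ * (MulAut.conj g).toMonoidHom m * g⁻¹⁻¹ = m := by
      show g⁻¹ * (g * m * g⁻¹) * g⁻¹⁻¹ = m
      group
    rw [e1] at h3 h4
    rw [show g⁻¹ * (g * x * g⁻¹) * g⁻¹⁻¹ = x by group] at h3
    rw [← e]
    exact mem_map_of_mem _ (h.oq q hq hp m hm h3 h4)
  · rw [← cj_cj_inv g M]
    refine cj_mono g (s4 _ (fun q hq hp => ?_) ?_)
    · rw [← cj_le_cj_iff g, cj_cj_inv, e]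
      exact m1 q hq hp
    · rw [← cj_le_cj_iff g, cj_cj_inv, cj_inf, cj_normalizer]
      exact m2

theorem Hyp.conj (h : Hyp p x) (g : G) : Hyp p (g * x * g⁻¹) := by
  refine ⟨by rw [ord_conj, h.ord], h.core, fun N h1 h2 => h.nrm N ?_ h2, fun y e => h.two (g⁻¹ * y * g) ?_,
    fun H h1 h2 => ?_⟩
  · have := conj_mem_of_mem_normalizer' (g := g) (h2 ▸ mem_top g) h1
    rwa [show g⁻¹ * (g * x * g⁻¹) * g = x by group] at this
  · apply cj_injective g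
    rw [cj_top, ← e, cj, MonoidHom.map_closure, Set.image_pair]
    congr 3
    show g * (g⁻¹ * y * g) * g⁻¹ = y
    group
  · have := (h.gd (cj g⁻¹ H) (fun e => h1 (cj_injective g⁻¹ (by rw [e, cj_top])))
      (mem_cj.2 (by rwa [inv_inv]))).conj g
    rwa [cj_cj_inv] at this

theorem Cx_le : Cx x ≤ normalizer (zpowers x : Set G) := by
  intro g hg
  rw [mem_normalizer_iff_cj, cj_zpowers, mem_Cx'.1 hg]

theorem Mem.le_Uq (h : Mem q x T) : T ≤ Uq q x := by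
  exact le_sSup h

theorem cj_Uq (g : G) : cj g (Uq q x) = Uq q (g * x * g⁻¹) := by
  refine le_antisymm (map_le_iff_le_comap.2 (sSup_le fun T hT => map_le_iff_le_comap.1 (hT.conj g).le_Uq))
    (sSup_le fun T hT => ?_)
  have := Mem.conj hT g⁻¹
  rw [show g⁻¹ * (g * x * g⁻¹) * g⁻¹⁻¹ = x by group] at this
  rw [← cj_cj_inv g T]
  exact cj_mono g this.le_Uq

theorem norm_Uq : normalizer (zpowers x : Set G) ≤ normalizer (Uq q x : Set G) := by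
  exact fun c hc => mem_normalizer_of_cj_le
    (map_le_iff_le_comap.2 (sSup_le fun T hT => map_le_iff_le_comap.1 (Mem.cj hT hc).le_Uq))

theorem mem_Uq (h : IsPGroup q (Uq q x)) : Mem q x (Uq q x) := by
  have hx : x ∈ normalizer (Uq q x : Set G) := norm_Uq (le_normalizer (mem_zpowers x))
  refine ⟨h, hx, le_antisymm (kita_le hx) (sSup_le fun T hT => ?_)⟩
  have hT' : Mem q x T := hT
  exact hT'.cm.ge.trans (commutator_mono hT'.le_Uq le_rfl)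

theorem comm_le (hx : x ∈ normalizer (R : Set G)) : ⁅R, zpowers x⁆ ≤ R := by
  exact kita_le hx

theorem Mem.le_comm (h : Mem q x T) (hT : T ≤ R) : T ≤ ⁅R, zpowers x⁆ := by
  exact h.cm.ge.trans (commutator_mono hT le_rfl)

theorem comm_eq_bot : ⁅R, zpowers x⁆ = ⊥ ↔ R ≤ Cx x := by
  rw [commutator_eq_bot_iff_le_centralizer, zpowers_eq_closure, centralizer_closure]

theorem eq_one_of_two (hq : q.Prime) (hr : r.Prime) (hqr : q ≠ r) {a : G} (h1 : IsPGroup q (zpowers a))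
    (h2 : IsPGroup r (zpowers a)) : a = 1 := by
  obtain ⟨k, hk⟩ := isPGroup_iff_mem.1 h1 a (mem_zpowers a)
  obtain ⟨l, hl⟩ := isPGroup_iff_mem.1 h2 a (mem_zpowers a)
  exact mem_bot.1 (mem_of_coprime_pow (((Nat.coprime_primes hq hr).2 hqr).pow k l) (mem_bot.2 hk)
    (mem_bot.2 hl))

theorem mem_of_mul (hq : q.Prime) (hr : r.Prime) (hqr : q ≠ r) {a b : G} (h1 : IsPGroup q (zpowers a))
    (h2 : IsPGroup r (zpowers b)) (hc : a * b = b * a) (h : a * b ∈ H) : a ∈ H ∧ b ∈ H := by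
  obtain ⟨k, hk⟩ := isPGroup_iff_mem.1 h1 a (mem_zpowers a)
  obtain ⟨l, hl⟩ := isPGroup_iff_mem.1 h2 b (mem_zpowers b)
  have h3 := pow_mem h (r ^ l)
  rw [Commute.mul_pow hc, hl, mul_one] at h3
  have h4 : a ∈ H := mem_of_coprime_pow (((Nat.coprime_primes hq hr).2 hqr).pow k l) (hk ▸ one_mem H) h3
  exact ⟨h4, (mul_mem_cancel_left h4).1 h⟩

/-- Baer–Suzuki -/
theorem bs (hq : q.Prime) {z : G} (hz : z ∈ K)
    (h : ∀ c ∈ K, ∃ Q : Subgroup G, IsPGroup q Q ∧ z ∈ Q ∧ c * z * c⁻¹ ∈ Q) : z ∈ pCoreOf q K := by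
  have : Fact q.Prime := ⟨hq⟩
  obtain ⟨Q, q1, q2, -⟩ := h 1 (one_mem K)
  obtain ⟨N, n1, n2, n3⟩ := Cfsg.Agent.S0199.result (p := q) (zpowers (⟨z, hz⟩ : K))
    ((q1.comap_subtype (K := K)).to_le (zpowers_le.2 q2)) fun g => by
      obtain ⟨Q, q1, q2, q3⟩ := h g g.2
      refine (q1.comap_subtype (K := K)).to_le (sup_le (zpowers_le.2 q2) ?_)
      rw [MonoidHom.map_zpowers]
      exact zpowers_le.2 q3
  exact (mem_pCore_iff (x := (⟨z, hz⟩ : K))).1 (le_pCore n1 n2 (n3 (mem_zpowers _)))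

/-- the maximal intersection argument -/
theorem mi (hq : q.Prime) {X : Subgroup G} {F : Subgroup G → Prop}
    (h0 : ∀ I : Subgroup G, IsPGroup q I → I ≠ ⊥ → normalizer (I : Set G) ≠ ⊤)
    (h1 : ∀ R, F R → IsPGroup q R ∧ X ≤ normalizer (R : Set G))
    (h2 : ∀ R₁ R₂, F R₁ → F R₂ → F (R₁ ⊓ normalizer ((R₁ ⊓ R₂ : Subgroup G) : Set G)))
    (h3 : ∀ H : Subgroup G, H ≠ ⊤ → X ≤ H → ∃ R₀, F R₀ ∧ ∀ R, F R → R ≤ H → R ≤ R₀)
    {R₁ R₂ : Subgroup G} (f1 : F R₁) (f2 : F R₂) (h : R₁ ⊓ R₂ ≠ ⊥) : ∃ R, F R ∧ R₁ ≤ R ∧ R₂ ≤ R := by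
  have : Fact q.Prime := ⟨hq⟩
  obtain ⟨m, hm⟩ : ∃ m, Nat.card G ≤ Nat.card (R₁ ⊓ R₂ : Subgroup G) + m := ⟨_, Nat.le_add_left _ _⟩
  induction m generalizing R₁ R₂ with
  | zero =>
    have : R₁ ⊓ R₂ = ⊤ := eq_top_of_le_card _ hm
    exact ⟨R₁, f1, le_rfl, le_top.trans (this.ge.trans inf_le_left)⟩
  | succ m ih =>
    by_cases a1 : R₁ ≤ R₂
    · exact ⟨R₂, f2, a1, le_rfl⟩
    by_cases a2 : R₂ ≤ R₁
    · exact ⟨R₁, f1, le_rfl, a2⟩
    have l1 := lt_inf_normalizer_of_lt (h1 _ f1).1 (inf_lt_left.2 a1)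
    have l2 := lt_inf_normalizer_of_lt (h1 _ f2).1 (inf_lt_right.2 a2)
    obtain ⟨R₀, f0, k0⟩ := h3 _ (h0 _ (h1 _ f1).1.to_inf_left h) fun g hg =>
      mem_normalizer_of_forall fun y hy => ⟨Tech.conj_mem_of_mem_normalizer ((h1 _ f1).2 hg) hy.1,
        Tech.conj_mem_of_mem_normalizer ((h1 _ f2).2 hg) hy.2⟩
    have s1 := k0 _ (h2 _ _ f1 f2) inf_le_right
    have s2 := k0 _ (inf_comm R₂ R₁ ▸ h2 _ _ f2 f1) inf_le_right
    have c1 : R₁ ⊓ R₂ < R₁ ⊓ R₀ := l1.trans_le (le_inf inf_le_left s1)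
    obtain ⟨R', f', r1, r2⟩ := ih f1 f0 (ne_bot_of_gt c1) (by have := Core.card_lt_of_lt c1; omega)
    have c2 : R₁ ⊓ R₂ < R' ⊓ R₂ := l2.trans_le (le_inf (s2.trans r2) inf_le_left)
    obtain ⟨R, f, r3, r4⟩ := ih f' f2 (ne_bot_of_gt c2) (by have := Core.card_lt_of_lt c2; omega)
    exact ⟨R, f, r1.trans r3, r4⟩

theorem Hyp.cent_ne (h : Hyp p x) {e : G} (he : e ≠ 1) : Cx e ≠ ⊤ := by
  intro e1
  have h1 : orderOf e ≠ 1 := fun k => he (orderOf_eq_one_iff.1 k)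
  have h2 := Nat.minFac_prime h1
  have h3 := orderOf_pow_orderOf_div (orderOf_pos e).ne' (Nat.minFac_dvd (orderOf e))
  refine h.core _ h2 (zpowers (e ^ (orderOf e / (orderOf e).minFac)))
    (isPGroup_zpowers_of_pow (k := 1) (by rw [pow_one]; exact orderOf_dvd_iff_pow_eq_one.1 h3.dvd))
    (fun k => h2.one_lt.ne' ?_) (eq_top_iff.2 fun g _ => Cx_le (mem_Cx.2 ?_))
  · rw [← h3, zpowers_eq_bot.1 k, orderOf_one]
  · exact Commute.pow_right (mem_Cx.1 (e1.ge (mem_top g))) _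

theorem Hyp.lemA (h : Hyp p x) (hn : Sp x n) (hc : c ∈ normalizer (zpowers x : Set G)) :
    ∃ H : Subgroup G, H ≠ ⊤ ∧ x ∈ H ∧ n ∈ H ∧ c ∈ H := by
  have h1 : x ∈ closure {x, c * n} := subset_closure (by simp)
  have h2 : c * n ∈ closure {x, c * n} := subset_closure (by simp)
  have h3 : x ∈ zpowers (c⁻¹ * x * c⁻¹⁻¹) := by
    rw [← cj_zpowers, mem_normalizer_iff_cj.1 (inv_mem hc)]
    exact mem_zpowers x
  have h4 : n⁻¹ * x * n ∈ closure {x, c * n} := by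
    have h5 := (conj_mem_cj (g := n⁻¹)).2 h3
    rw [cj_zpowers, inv_inv, inv_inv] at h5
    refine zpowers_le.2 ?_ h5
    have := mul_mem (mul_mem (inv_mem h2) h1) h2
    convert this using 1
    group
  have h5 : n ∈ closure {x, c * n} :=
    (closure_le _).2 (Set.insert_subset h1 (Set.singleton_subset_iff.2 h4)) hn
  exact ⟨_, h.two _, h1, h5, (mul_mem_cancel_right h5).1 h2⟩

end CfsgLib.F2C
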