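import Cfsg.Agent.Lib.F2C.Kit

/-!
F2C/LC. `Y = W ⊓ C(T)`, `T' = [Y,P] ≠ ⊥`. (N) if `⊥ ≠ I ≤ Y`, `x ∈ N(I)`, `B ≤ W ⊓ N(I)`, `x ∈ N(B)`, then `[B,P] ≤ Y` (`H = N(I) ∋ x`, `T ≤ O_q(H)`, `[B,P] ≤ O_r(H)`, `core_comm`).
Suppose `W ≰ Y`. `Z = W ⊓ C(W)`. `Z ⊓ Y = ⊥` ((N) with `B = W`). `Z ≤ C(x)` ((N) with `I = T'`). `B = {b ∈ W | ∀ w ∈ W, ⁅b, w⁆ ∈ Z}`; `[B,P] ≠ ⊥`: else `W = [W,P]` centralises `B ⊴ W`, `B ≤ Z`,
but `Z < W` (else `T' = ⊥`) and the `r`-group `W/Z` has a nontrivial centre. (TR) a member `E ≤ Y` and `w ∈ W` with `d⁻¹ w d w⁻¹ ∈ Z` for `d ∈ E`: then `w` centralises `E`. For special `d` (`le_of_sp`), `x' = w x w⁻¹`,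
`d₁ = w d w⁻¹ = d z`, `u ∈ T`: `H = ⟨x', u d⟩ ≠ ⊤` (`Hyp.conj`, `two`) contains `u, d` (`mem_of_mul`), `d⁻¹ x' d = d₁⁻¹ x' d₁`, so `d₁ ∈ H`, `d₁ ∈ O_r(H)` (`oq`), `u z u⁻¹ z⁻¹ = d⁻¹ (u d₁ u⁻¹ d₁⁻¹) d ∈ O_r(H) ⊓ U = 1`.
So `z ∈ Z ⊓ Y = ⊥`. Apply (TR) to `E = T'`, `w ∈ B`: `B ≤ N(T')`, `B₁ = [B,P] ≤ Y`; then to `E = B₁`, `w ∈ W`: `B₁ ≤ Z ⊓ Y = ⊥`.
`kl`: `r = q`: `[O_q(H),P]` is a member meeting `U`. `r ≠ q`, `T' ≠ ⊥`: `T'` centralises `T`; `lemC` for `T'` (with its `QU`) and `W = U`.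
-/

set_option autoImplicit false
set_option linter.unusedSectionVars false

namespace CfsgLib.F2C

open Subgroup Cfsg CfsgLib.Tech CfsgLib.W2 CfsgLib.LAE
open scoped commutatorElement

universe u

variable {G : Type u} [Group G] [Finite G] {p q r : ℕ} [Fact p.Prime] {x n c u b : G}
  {H K M R T T' U W : Subgroup G}

theorem lc_norm_cent {g : G} (hg : g ∈ normalizer (T : Set G)) :
    g ∈ normalizer (centralizer (T : Set G) : Set G) := by
  rw [mem_normalizer_iff_cj] at hg ⊢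
  rw [cj_centralizer, hg]

theorem lc_norm_inf {g : G} (h1 : g ∈ normalizer (T : Set G)) (h2 : g ∈ normalizer (W : Set G)) :
    g ∈ normalizer ((T ⊓ W : Subgroup G) : Set G) := by
  rw [mem_normalizer_iff_cj] at h1 h2 ⊢
  rw [cj_inf, h1, h2]

theorem lc_cent_norm {g : G} (h : ∀ a ∈ T, g * a = a * g) : g ∈ normalizer (T : Set G) :=
  mem_normalizer_of_forall fun a ha => by rwa [h a ha, mul_inv_cancel_right]

/-- the second centre -/
def lcB (W : Subgroup G) : Subgroup G where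
  carrier := {b | b ∈ W ∧ ∀ w ∈ W, b * w * b⁻¹ * w⁻¹ ∈ W ⊓ centralizer (W : Set G)}
  one_mem' := ⟨one_mem _, fun w _ => by simp⟩
  mul_mem' := by
    rintro a b ⟨ha, ha'⟩ ⟨hb, hb'⟩
    refine ⟨mul_mem ha hb, fun w hw => ?_⟩
    have e := mem_centralizer_iff.1 (hb' w hw).2 a ha
    have : a * b * w * (a * b)⁻¹ * w⁻¹ = (a * (b * w * b⁻¹ * w⁻¹)) * a⁻¹ * (a * w * a⁻¹ * w⁻¹) := by group
    rw [this, e, mul_inv_cancel_right]
    exact mul_mem (hb' w hw) (ha' w hw)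
  inv_mem' := by
    rintro b ⟨hb, hb'⟩
    refine ⟨inv_mem hb, fun w hw => ?_⟩
    have e := mem_centralizer_iff.1 (inv_mem (hb' w hw)).2 b⁻¹ (inv_mem hb)
    have : b⁻¹ * w * b⁻¹⁻¹ * w⁻¹ = (b⁻¹ * (b * w * b⁻¹ * w⁻¹)⁻¹) * b := by group
    rw [this, e, inv_mul_cancel_right]
    exact inv_mem (hb' w hw)

theorem lcB_norm {g : G} (hg : g ∈ normalizer (W : Set G)) : g ∈ normalizer (lcB W : Set G) := by
  refine mem_normalizer_of_forall fun b hb => ⟨Tech.conj_mem_of_mem_normalizer hg hb.1, fun w hw => ?_⟩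
  have := Tech.conj_mem_of_mem_normalizer (lc_norm_inf hg (lc_norm_cent hg))
    (hb.2 _ (conj_mem_of_mem_normalizer' hg hw))
  convert this using 1
  group

theorem lcB_le (hr : r.Prime) (hW : IsPGroup r W) (h : lcB W ≤ centralizer (W : Set G)) :
    W ≤ centralizer (W : Set G) := by
  haveI := Fact.mk hr
  obtain ⟨m, hm⟩ := hW.isNilpotent.nilpotent
  have key : ∀ k, ∀ b : W, b ∈ Subgroup.upperCentralSeries W k → (b : G) ∈ centralizer (W : Set G) := by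
    intro k
    induction k with
    | zero =>
      intro b hb
      rw [Subgroup.upperCentralSeries_zero, mem_bot] at hb
      rw [hb]
      exact one_mem _
    | succ k ih =>
      intro b hb
      refine h ⟨b.2, fun w hw => mem_inf.2 ⟨mul_mem (mul_mem (mul_mem b.2 hw) (inv_mem b.2)) (inv_mem hw), ?_⟩⟩
      exact ih _ (Subgroup.mem_upperCentralSeries_succ_iff.1 hb ⟨w, hw⟩)
  intro b hb
  exact key m ⟨b, hb⟩ (hm ▸ mem_top _)

section
variable (h : Hyp p x) (hq : q.Prime) (hqp : q ≠ p) (hr : r.Prime) (hrp : r ≠ p) (hqr : q ≠ r)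
  (hT : Mem q x T) (hW : Mem r x W)
include h hq hqp hr hrp hqr hT hW

theorem lc_N {I B : Subgroup G} (h0 : I ≠ ⊥) (hI : I ≤ W ⊓ centralizer (T : Set G))
    (hx : x ∈ normalizer (I : Set G)) (hB : B ≤ W) (hBI : B ≤ normalizer (I : Set G))
    (hxB : x ∈ normalizer (B : Set G)) : ⁅B, zpowers x⁆ ≤ W ⊓ centralizer (T : Set G) := by
  have g := h.gd _ (h.core r hr I (hW.pg.to_le (hI.trans inf_le_left)) h0) hx
  have h1 : T ≤ pCoreOf q (normalizer (I : Set G)) :=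
    g.mem_le h.ord hq hqp hT fun t ht => lc_cent_norm fun a ha => mem_centralizer_iff.1 (hI ha).2 t ht
  have h2 := g.mem_le h.ord hr hrp (mem_comm h.ord hr hrp (hW.pg.to_le hB) hxB) ((comm_le hxB).trans hBI)
  refine le_inf ((comm_le hxB).trans hB) fun a ha => mem_centralizer_iff.2 fun t ht => ?_
  exact core_comm hq hr hqr (h1 ht) (h2 ha)

theorem lc_TR (hU : IsPGroup q U) (hTU : T ≤ U) (hN : Cx x ≤ normalizer (U : Set G))
    (hZ : W ⊓ centralizer (W : Set G) ≤ Cx x)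
    (hZY : (W ⊓ centralizer (W : Set G)) ⊓ (W ⊓ centralizer (T : Set G)) = ⊥)
    {E : Subgroup G} (hE : Mem r x E) (hEY : E ≤ W ⊓ centralizer (T : Set G)) {w : G} (hw : w ∈ W)
    (hz : ∀ d ∈ E, d⁻¹ * w * d * w⁻¹ ∈ W ⊓ centralizer (W : Set G)) : E ≤ Cx w := by
  refine hE.le_of_sp h.ord hr hrp fun d hd hs => ?_
  obtain ⟨z, hze⟩ : ∃ z, z = d⁻¹ * w * d * w⁻¹ := ⟨_, rfl⟩
  have hzZ : z ∈ W ⊓ centralizer (W : Set G) := hze ▸ hz d hd
  have hdW : d ∈ W := (hEY hd).1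
  have e1 : w * d * w⁻¹ = d * z := by rw [hze]; group
  have c1 : d * z = z * d := mem_centralizer_iff.1 hzZ.2 d hdW
  have c2 : w * z = z * w := mem_centralizer_iff.1 hzZ.2 w hw
  have c3 : z * x = x * z := mem_Cx.1 (hZ hzZ)
  have c4 : Commute z (w * x * w⁻¹) :=
    ((Commute.symm c2).mul_right c3).mul_right (Commute.symm c2).inv_right
  have hz1 : z ∈ centralizer (T : Set G) := by
    refine mem_centralizer_iff.2 fun u hu => ?_
    have c5 : u * d = d * u := mem_centralizer_iff.1 (hEY hd).2 u hu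
    have h' := h.conj w
    have hx' : w * x * w⁻¹ ∈ closure ({w * x * w⁻¹, u * d} : Set G) := subset_closure (by simp)
    have g := h'.gd _ (h'.two (u * d)) hx'
    obtain ⟨huH, hdH⟩ := mem_of_mul (H := closure ({w * x * w⁻¹, u * d} : Set G)) hq hr hqr
      (isPGroup_zpowers_of_mem hT.pg hu) (isPGroup_zpowers_of_mem hW.pg hdW) c5 (subset_closure (by simp))
    generalize closure ({w * x * w⁻¹, u * d} : Set G) = H at *
    have hs' := hs.conj w
    rw [e1] at hs'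
    have hd1 : d * z ∈ H := by
      refine (closure_le H).2 ?_ hs'
      rintro _ (rfl | rfl)
      · exact hx'
      · have : (d * z)⁻¹ * (w * x * w⁻¹) * (d * z) = d⁻¹ * (w * x * w⁻¹) * d := by
          rw [c1]
          calc (z * d)⁻¹ * (w * x * w⁻¹) * (z * d) = d⁻¹ * z⁻¹ * ((w * x * w⁻¹) * z) * d := by group
            _ = _ := by rw [← c4.eq]; group
        rw [this]
        exact mul_mem (mul_mem (inv_mem hdH) hx') hdH
    have hO := g.oq r hr hrp _ hd1 hs' (isPGroup_zpowers_of_mem hW.pg (mul_mem hdW hzZ.1))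
    have hO' : u * z * u⁻¹ * z⁻¹ ∈ pCoreOf r H := by
      have : u * z * u⁻¹ * z⁻¹ = d⁻¹ * (u * (d * z) * u⁻¹ * (d * z)⁻¹) * d := by
        calc u * z * u⁻¹ * z⁻¹ = d⁻¹ * (d * u) * z * u⁻¹ * z⁻¹ := by group
          _ = _ := by rw [← c5]; group
      rw [this]
      exact conj_mem_of_mem_normalizer' (le_normalizer_pCoreOf H hdH)
        (mul_mem (Tech.conj_mem_of_mem_normalizer (le_normalizer_pCoreOf H huH) hO) (inv_mem hO))
    have hU' : u * z * u⁻¹ * z⁻¹ ∈ U := by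
      have := mul_mem (hTU hu) (Tech.conj_mem_of_mem_normalizer (hN (hZ hzZ)) (inv_mem (hTU hu)))
      simpa only [mul_assoc] using this
    have := eq_one_of_two hq hr hqr (isPGroup_zpowers_of_mem hU hU')
      (isPGroup_zpowers_of_mem (isPGroup_pCoreOf H) hO')
    rwa [mul_inv_eq_one, mul_inv_eq_iff_eq_mul] at this
  have : z = 1 := by
    rw [← mem_bot, ← hZY]
    exact ⟨hzZ, hzZ.1, hz1⟩
  rw [this, mul_one, mul_inv_eq_iff_eq_mul] at e1
  exact mem_Cx.2 e1.symm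

end

theorem Hyp.lemC (h : Hyp p x) (hq : q.Prime) (hqp : q ≠ p) (hr : r.Prime) (hrp : r ≠ p) (hqr : q ≠ r)
    (hT : Mem q x T) (hU : IsPGroup q U) (hTU : T ≤ U) (hN : Cx x ≤ normalizer (U : Set G))
    (hW : Mem r x W) (h0 : ⁅W ⊓ centralizer (T : Set G), zpowers x⁆ ≠ ⊥) :
    W ≤ centralizer (T : Set G) := by
  by_contra hne
  have hxY := lc_norm_inf hW.nx (lc_norm_cent hT.nx)
  have hxZ := lc_norm_inf hW.nx (lc_norm_cent hW.nx)
  have hT' := mem_comm h.ord hr hrp (hW.pg.to_le inf_le_left) hxY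
  have hT'Y := comm_le hxY
  have hZY : (W ⊓ centralizer (W : Set G)) ⊓ (W ⊓ centralizer (T : Set G)) = ⊥ := by
    by_contra h1
    have := lc_N h hq hqp hr hrp hqr hT hW h1 inf_le_right (lc_norm_inf hxZ hxY) le_rfl
      (fun w hw => lc_cent_norm fun a ha => mem_centralizer_iff.1 ha.1.2 w hw) hW.nx
    rw [hW.cm] at this
    exact hne (this.trans inf_le_right)
  have hZ : W ⊓ centralizer (W : Set G) ≤ Cx x := by
    rw [← comm_eq_bot, eq_bot_iff, ← hZY]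
    refine le_inf (comm_le hxZ) (lc_N h hq hqp hr hrp hqr hT hW h0 hT'Y hT'.nx inf_le_left
      (fun z hz => lc_cent_norm fun a ha => (mem_centralizer_iff.1 hz.2 a (hT'Y ha).1).symm) hxZ)
  have hxB : x ∈ normalizer (lcB W : Set G) := lcB_norm hW.nx
  have hBW : lcB W ≤ W := fun _ hb => hb.1
  have hB1 := mem_comm h.ord hr hrp (hW.pg.to_le hBW) hxB
  have hB1Y : ⁅lcB W, zpowers x⁆ ≤ W ⊓ centralizer (T : Set G) := by
    refine lc_N h hq hqp hr hrp hqr hT hW h0 hT'Y hT'.nx hBW (fun b hb => lc_cent_norm fun a ha => ?_) hxB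
    refine (mem_Cx.1 (lc_TR h hq hqp hr hrp hqr hT hW hU hTU hN hZ hZY hT' hT'Y hb.1
      (fun d hd => ?_) ha)).symm
    have := inv_mem (hb.2 d⁻¹ (inv_mem (hT'Y hd).1))
    convert this using 1
    group
  have hB0 : ⁅lcB W, zpowers x⁆ = ⊥ := by
    rw [eq_bot_iff, ← hZY]
    refine le_inf (fun a ha => ⟨(hB1Y ha).1, mem_centralizer_iff.2 fun w hw => ?_⟩) hB1Y
    refine (mem_Cx.1 (lc_TR h hq hqp hr hrp hqr hT hW hU hTU hN hZ hZY hB1 hB1Y hw
      (fun d hd => ?_) ha)).symm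
    simpa only [inv_inv] using (inv_mem (comm_le hxB hd)).2 w hw
  rw [comm_eq_bot] at hB0
  have hWZ : W ≤ centralizer (W : Set G) := by
    refine lcB_le hr hW.pg (le_centralizer_iff.1 ?_)
    have hP : zpowers x ≤ centralizer (lcB W : Set G) :=
      zpowers_le.2 (mem_centralizer_iff.2 fun b hb => mem_Cx.1 (hB0 hb))
    refine hW.cm.ge.trans (commutator_le.2 fun w hw y hy => ?_)
    rw [commutatorElement_def]
    exact mul_mem (Tech.conj_mem_of_mem_normalizer (lc_norm_cent (lcB_norm (le_normalizer hw))) (hP hy))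
      (inv_mem (hP hy))
  exact h0 (comm_eq_bot.2 fun a ha => hZ ⟨ha.1, hWZ ha.1⟩)

theorem Hyp.kl (h : Hyp p x) (hQ : HQ p x) (hq : q.Prime) (hqp : q ≠ p) (hr : r.Prime) (hrp : r ≠ p)
    (hU : QU q x U) (hT : Mem q x T) (h0 : T ≠ ⊥) (hTU : T ≤ U) (hH : H ≠ ⊤) (hx : x ∈ H) (hTH : T ≤ H)
    (hT' : Mem r x T') (hT'H : T' ≤ H) : T' ≤ normalizer (U : Set G) := by
  have g := h.gd H hH hx
  have h1 := g.mem_le h.ord hq hqp hT hTH
  have h2 := g.mem_le h.ord hr hrp hT' hT'H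
  by_cases hqr : r = q
  · subst hqr
    have h3 := mem_comm h.ord hq hqp (isPGroup_pCoreOf H) (le_normalizer_pCoreOf H hx)
    have h4 := hU.ti _ h3 fun e => h0 (eq_bot_iff.2 (e ▸ le_inf (hT.le_comm h1) hTU))
    exact ((hT'.le_comm h2).trans h4).trans le_normalizer
  · by_cases h0' : T' = ⊥
    · rw [h0']
      exact bot_le
    obtain ⟨U', hU', hle⟩ := hQ r hr hrp T' hT' h0'
    have h3 : T ≤ U ⊓ centralizer (T' : Set G) :=
      le_inf hTU fun a ha => mem_centralizer_iff.2 fun b hb => core_comm hr hq hqr (h2 hb) (h1 ha)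
    have h4 := h.lemC hr hrp hq hqp hqr hT' hU'.pg hle (Cx_le.trans hU'.nP) hU.toMem
      fun e => h0 (eq_bot_iff.2 (e ▸ hT.le_comm h3))
    exact fun t ht => lc_cent_norm fun a ha => mem_centralizer_iff.1 (h4 ha) t ht

end CfsgLib.F2C
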