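import Cfsg.Agent.Lib.F2C.Kit
import Cfsg.Agent.S3816

/-!
F2C/ODD. `D = O_q(C(x))`. `k0`: S3816 for `↥T` and the automorphism induced by `x` (order `p` unless `T = ⊥`): `C_T(x)` is generated by the `C_{[u,P]}(x)`.
For `u = c₀ n` (`exists_sp`; `[u,P]` is generated by the `n⁻¹ (xⁱ n x⁻ⁱ)`) and `c ∈ C(x)`, `lemA` gives a proper `H ∋ x, n, c`, `n ∈ O_q(H)` (`oq`), so `[u,P] ≤ O_q(H)`; for `z ∈ C_{[u,P]}(x)`
both `z, c z c⁻¹ ∈ O_q(H)`; `bs` in `C(x)`. `odd`: family `F R := IsPGroup q R ∧ x ∈ N(R) ∧ R ⊓ C(x) ≤ D`, `X = P`, `mi` with `R₀ = [O_q(H),P] ⊔ (D ⊓ H)` (`le_of_comm`, `Gd.comm_le`;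
`D ⊓ H` normalises `[O_q(H),P]`; an element `a d` centralising `x` has `a ∈ C(x)`, `k0`). Take `R` maximal in `F` above `T`; `F R'`, `R' ⊓ R ≠ ⊥` give `R' ≤ R`. `U = [R,P]`.
`c ∈ N(P)`: `F (cj c R)`; `n ∈ T` special `≠ 1`, `H ∋ x, n, c` proper, `n, c n c⁻¹ ∈ [O_q(H),P] =: T₀` (a member, in `F`), so `T₀ ≤ R`, `c n c⁻¹ ∈ R ⊓ cj c R`, `cj c R ≤ R`.
-/

set_option autoImplicit false
set_option linter.unusedSectionVars false

namespace CfsgLib.F2C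

open Subgroup Cfsg CfsgLib.Tech CfsgLib.W2 CfsgLib.LAE
open scoped commutatorElement

universe u

variable {G : Type u} [Group G] [Finite G] {p q r : ℕ} [Fact p.Prime] {x n c u b : G}
  {H K M R T T' U W : Subgroup G}

theorem odd_Cx : Cx x = centralizer (zpowers x : Set G) := by
  rw [zpowers_eq_closure, centralizer_closure]

theorem odd_nC (hc : c ∈ normalizer (zpowers x : Set G)) : c ∈ normalizer (Cx x : Set G) := by
  rw [mem_normalizer_iff_cj, odd_Cx, cj_centralizer, mem_normalizer_iff_cj.1 hc]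

theorem odd_ne (hT : Mem q x T) (h0 : T ≠ ⊥) : ¬ T ≤ Cx x := fun k => h0 (hT.cm.symm.trans (comm_eq_bot.2 k))

theorem Hyp.k0 (h : Hyp p x) (hp : p ≠ 2) (hq : q.Prime) (hqp : q ≠ p) (hT : Mem q x T) :
    T ⊓ Cx x ≤ pCoreOf q (Cx x) := by
  by_cases h0 : T = ⊥
  · rw [h0, bot_inf_eq]
    exact bot_le
  have : Fact q.Prime := ⟨hq⟩
  have := hT.pg.isNilpotent
  obtain ⟨α, hα⟩ : ∃ α : MulAut T, ∀ (i : ℕ) (t : T), ((α ^ i) t : G) = x ^ i * t * (x ^ i)⁻¹ :=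
    ⟨T.normalizerMonoidHom ⟨x, hT.nx⟩, fun i t => by rw [← map_pow]; rfl⟩
  have a1 : ∀ t : T, (α t : G) = x * t * x⁻¹ := fun t => by simpa only [pow_one] using hα 1 t
  have a2 : orderOf α = p := orderOf_eq_prime
    (MulEquiv.ext fun t => Subtype.ext (by rw [hα, ← h.ord, pow_orderOf_eq_one]; simp))
    fun e => odd_ne hT h0 fun t ht => Cx_comm.1 (mem_Cx'.2 (by rw [← a1 ⟨t, ht⟩, e]; rfl) |> Cx_comm.2 |> Cx_comm.1)
  have a3 : (Nat.card T).Coprime p := by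
    have := (cop h.ord hq hqp hT.pg).symm
    rwa [Nat.card_zpowers, h.ord] at this
  have key := Cfsg.Agent.S3816.result hp a3 α a2
  rintro z ⟨hz, hzc⟩
  have b1 : (⟨z, hz⟩ : T) ∈ closure {c : T | ∃ h : T, ∃ i : ℕ, c = h⁻¹ * (α ^ i) h} := by
    have b2 : ⁅T, zpowers x⁆ ≤ (closure {c : T | ∃ h : T, ∃ i : ℕ, c = h⁻¹ * (α ^ i) h}).map T.subtype :=
      commutator_le.2 fun a ha y hy => by
        obtain ⟨i, rfl⟩ := mem_powers_iff_mem_zpowers.2 hy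
        refine ⟨_, subset_closure ⟨⟨a⁻¹, inv_mem ha⟩, i, rfl⟩, ?_⟩
        rw [coe_subtype, coe_mul, hα, commutatorElement_def]
        simp only [InvMemClass.coe_inv, inv_inv, mul_assoc]
    obtain ⟨w, hw, e⟩ := b2 (hT.cm.ge hz)
    rwa [show w = ⟨z, hz⟩ from Subtype.ext e] at hw
  have b3 : (⟨z, hz⟩ : T) ∈ (α : T →* T).eqLocus (MonoidHom.id T) :=
    Subtype.ext ((a1 _).trans (mem_Cx'.1 (Cx_comm.1 hzc)))
  have b4 := key.le ⟨b1, b3⟩
  refine (show _ ≤ (pCoreOf q (Cx x)).comap T.subtype from iSup_le fun u => ?_) b4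
  rintro w ⟨w1, w2⟩
  have w3 : (w : G) ∈ Cx x := Cx_comm.1 (mem_Cx'.2 ((a1 w).symm.trans (congrArg Subtype.val w2)))
  refine bs hq w3 fun c hc => ?_
  obtain ⟨c₀, -, n, hn, e1, e2, e3⟩ := exists_sp h.ord hq hqp hT.pg hT.nx u.2
  obtain ⟨H, k1, k2, k3, k4⟩ := h.lemA e2 (Cx_le hc)
  have k5 := (h.gd H k1 k2).oq q hq hqp n k3 e2 (isPGroup_zpowers_of_mem hT.pg hn)
  have k6 : (w : G) ∈ pCoreOf q H := by
    refine (show _ ≤ (pCoreOf q H).comap T.subtype from (closure_le _).2 ?_) w1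
    rintro _ ⟨i, rfl⟩
    have k7 := mul_mem (inv_mem k5)
      (Tech.conj_mem_of_mem_normalizer (le_normalizer_pCoreOf H (pow_mem k2 i)) k5)
    have k8 : x ^ i * c₀ = c₀ * x ^ i := (Commute.pow_right e1 i).eq.symm
    rw [SetLike.mem_coe, mem_comap, coe_subtype, coe_mul, hα, InvMemClass.coe_inv, e3, ← mul_assoc (x ^ i), k8]
    convert k7 using 1
    group
  exact ⟨_, isPGroup_pCoreOf H, k6, Tech.conj_mem_of_mem_normalizer (le_normalizer_pCoreOf H k4) k6⟩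

/-- the family of the maximal intersection argument -/
def OddF (q : ℕ) (x : G) (R : Subgroup G) : Prop :=
  IsPGroup q R ∧ x ∈ normalizer (R : Set G) ∧ R ⊓ Cx x ≤ pCoreOf q (Cx x)

theorem Hyp.odd_mi (h : Hyp p x) (hp : p ≠ 2) (hq : q.Prime) (hqp : q ≠ p) {R₁ R₂ : Subgroup G}
    (f1 : OddF q x R₁) (f2 : OddF q x R₂) (h0 : R₁ ⊓ R₂ ≠ ⊥) : ∃ R, OddF q x R ∧ R₁ ≤ R ∧ R₂ ≤ R := by
  refine mi hq (X := zpowers x) (h.core q hq) (fun R f => ⟨f.1, zpowers_le.2 f.2.1⟩) (fun R₁ R₂ f1 f2 => ?_)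
    (fun H hH hx => ?_) f1 f2 h0
  · have a1 : x ∈ normalizer ((R₁ ⊓ R₂ : Subgroup G) : Set G) := inf_normalizer_le_normalizer_inf ⟨f1.2.1, f2.2.1⟩
    refine ⟨f1.1.to_inf_left, inf_normalizer_le_normalizer_inf ⟨f1.2.1, le_normalizer a1⟩,
      (inf_le_inf_right _ inf_le_left).trans f1.2.2⟩
  · have hx' := zpowers_le.1 hx
    have m := mem_comm h.ord hq hqp (isPGroup_pCoreOf (p := q) H) (le_normalizer_pCoreOf H hx')
    have a1 : pCoreOf q (Cx x) ⊓ H ≤ Cx x := inf_le_left.trans (pCoreOf_le _)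
    have a2 : pCoreOf q (Cx x) ⊓ H ≤ normalizer ((⁅pCoreOf q H, zpowers x⁆ : Subgroup G) : Set G) := fun d hd =>
      Core.normalizer_inf_le_normalizer_commutator _ _ ⟨le_normalizer_pCoreOf H hd.2, Cx_le (a1 hd)⟩
    refine ⟨⁅pCoreOf q H, zpowers x⁆ ⊔ pCoreOf q (Cx x) ⊓ H,
      ⟨m.pg.to_sup_of_normal_left' (isPGroup_pCoreOf _).to_inf_left a2, ?_, ?_⟩, fun R f hR => ?_⟩
    · rw [mem_normalizer_iff_cj, cj_sup, mem_normalizer_iff_cj.1 m.nx, mem_normalizer_iff_cj.1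
        (mem_normalizer_of_forall fun d hd => by rw [mem_Cx'.1 (Cx_comm.1 (a1 hd))]; exact hd)]
    · rintro w ⟨w1, w2⟩
      obtain ⟨a, ha, d, hd, rfl⟩ := (Core.mem_sup_of_le_normalizer_left a2).1 w1
      exact mul_mem (h.k0 hp hq hqp m ⟨ha, (mul_mem_cancel_right (a1 hd)).1 w2⟩) hd.1
    · exact le_of_comm h.ord hq hqp f.1 f.2.1
        (((h.gd H hH hx').comm_le h.ord hq hqp f.1 f.2.1 hR).trans le_sup_left)
        ((le_inf f.2.2 (inf_le_left.trans hR)).trans le_sup_right)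

theorem Hyp.odd (h : Hyp p x) (hp : p ≠ 2) : HQ p x := by
  intro q hq hqp T hT h0
  have mf : ∀ {T}, Mem q x T → OddF q x T := fun m => ⟨m.pg, m.nx, h.k0 hp hq hqp m⟩
  obtain ⟨R, hTR, f, hmax⟩ := Finite.exists_le_maximal (p := OddF q x) (mf hT)
  have le : ∀ {R'}, OddF q x R' → R' ⊓ R ≠ ⊥ → R' ≤ R := fun f' k => by
    obtain ⟨R'', f'', k1, k2⟩ := h.odd_mi hp hq hqp f' f k
    exact k1.trans (hmax f'' k2)
  refine ⟨⁅R, zpowers x⁆, ⟨mem_comm h.ord hq hqp f.1 f.2.1, fun c hc => ?_, fun T' m k =>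
    m.le_comm (le (mf m) fun e => k (eq_bot_iff.2 ((inf_le_inf_left _ (comm_le f.2.1)).trans e.le)))⟩, hT.le_comm hTR⟩
  refine Core.normalizer_inf_le_normalizer_commutator _ _ ⟨mem_normalizer_of_cj_le (le ⟨isPGroup_cj c f.1, ?_, ?_⟩ ?_), hc⟩
  · rw [← cj_normalizer, mem_cj]
    exact zpowers_le.2 f.2.1 (conj_mem_of_mem_normalizer' hc (mem_zpowers x))
  · rw [← mem_normalizer_iff_cj.1 (normalizer_le_normalizer_pCoreOf _ (odd_nC hc))]
    conv_lhs => rw [← mem_normalizer_iff_cj.1 (odd_nC hc), ← cj_inf]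
    exact cj_mono c f.2.2
  · obtain ⟨n, hn, e2, n1⟩ := exists_sp_ne h.ord hq hqp hT.pg hT.nx (odd_ne hT h0)
    obtain ⟨H, k1, k2, k3, k4⟩ := h.lemA e2 hc
    have k5 := (h.gd H k1 k2).oq q hq hqp n k3 e2 (isPGroup_zpowers_of_mem hT.pg hn)
    have k6 := e2.mem_comm h.ord hq hqp (isPGroup_pCoreOf (p := q) H) (le_normalizer_pCoreOf H k2) k5
    have k7 := le (mf (mem_comm h.ord hq hqp (isPGroup_pCoreOf (p := q) H) (le_normalizer_pCoreOf H k2)))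
      fun e => n1 (mem_bot.1 (e.le ⟨k6, hTR hn⟩))
    have k8 := k7 (Tech.conj_mem_of_mem_normalizer
      (Core.normalizer_inf_le_normalizer_commutator _ _ ⟨le_normalizer_pCoreOf H k4, hc⟩) k6)
    intro e
    have k9 := mem_bot.1 (e.le ⟨conj_mem_cj.2 (hTR hn), k8⟩)
    exact n1 (by simpa [mul_inv_eq_one] using k9)

end CfsgLib.F2C
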