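import Cfsg.Agent.Lib.F2C.Kit

/-!
F2C/ONE. `all_in`: `E = ⟨x, b⟩` is abelian, not cyclic, a `p`-group, normalises every `QU`. For a `QU` `U ≠ ⊥`: `Coprime.le_of_forall_centralizer_le` gives `1 ≠ e ∈ E` with `U ⊓ C(e) ≰ C(x)`; `e = xⁱ bʲ`, `p ∤ j`, replace `e` by a power
`e = xⁱ b`; special `1 ≠ u ∈ U ⊓ C(e)` (`exists_sp_ne`). Two such `(U₁,e₁,u₁)`, `(U₂,e₂,u₂)` lie with `x` in a proper `H`: `C(e₁)` if `e₁ = e₂`; else `y = e₁ e₂⁻¹` generates `P`, `H = ⟨u₁⁻¹ x u₁, e₂ u₂⟩ ∋ e₂, u₂`,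
`u₁⁻¹ y u₁ e₂ = e₁ m`, `m = u₁⁻¹ e₂⁻¹ u₁ e₂ ∈ U₁ ⊓ C(e₁)`, so `e₁, y, x, u₁ ∈ H`. `Tᵢ = [Uᵢ ⊓ H, P] ≠ ⊥`; `kl` gives `T₁ ≤ N(U₂)`, and `kl` in `N(U₂)` gives `U₂ ≤ N(U₁)`. `H₀ = N(U₁)`.
`one`: `T₀ ≠ ⊥` a `q`-member. For conjugates `b` of `x`: `Uq q b` is a `q`-group (`≤ O_q(H)`, `cj_Uq`); every `b`-invariant `r`-group (`r ≠ p`) normalises it (`le_of_comm`, `norm_Uq`, `core_comm`).
`E S = ⨆ (b ∈ S, b ~ x) Uq q b` is a `q`-group for `p`-groups `S` (induction on `|S|`: for `b, b' ∈ S`, either `S = ⟨b⟩` or `b ∈ S₁ ◁ S` maximal; `b'` normalises the `q`-group `Uq q b` resp. `E S₁`, so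
`Uq q b ≤ N(Uq q b')`; then all `Uq q b ≤ O_q(E S)`). For `g`: `fr` for `⟨x, g⟩` with `M = N(E S)`; `bs` for `1 ≠ z ∈ T₀`, `K = ⊤`.
-/

set_option autoImplicit false
set_option linter.unusedSectionVars false

namespace CfsgLib.F2C

open Subgroup Cfsg CfsgLib.Tech CfsgLib.W2 CfsgLib.LAE
open scoped commutatorElement

universe u

variable {G : Type u} [Group G] [Finite G] {p q r : ℕ} [Fact p.Prime] {x n c u b : G}
  {H K M R T T' U W : Subgroup G}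

/-- `Uq q b` is a `q`-group normalised by the `b`-invariant `r`-groups -/
def OneG (p q : ℕ) (b : G) : Prop := IsPGroup q (Uq q b) ∧
  ∀ r : ℕ, r.Prime → r ≠ p → ∀ R : Subgroup G, IsPGroup r R → b ∈ normalizer (R : Set G) →
    R ≤ normalizer (Uq q b : Set G)

/-- the join of the `Uq q b` over the conjugates `b ∈ S` of `x` -/
def oneE (q : ℕ) (x : G) (S : Subgroup G) : Subgroup G := ⨆ b : {b : G // b ∈ S ∧ IsConj x b}, Uq q (b : G)

theorem one_g (h : Hyp p x) (hH : H ≠ ⊤) (hx : x ∈ H)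
    (hall : ∀ q : ℕ, q.Prime → q ≠ p → ∀ T, Mem q x T → T ≤ H) (hq : q.Prime) (hqp : q ≠ p) : OneG p q x := by
  haveI := Fact.mk hq
  have g := h.gd H hH hx
  have h1 : Uq q x ≤ pCoreOf q H := sSup_le fun T hT => g.mem_le h.ord hq hqp hT (hall q hq hqp T hT)
  refine ⟨(isPGroup_pCoreOf H).to_le h1, fun r hr hrp R hR hb =>
    le_of_comm h.ord hr hrp hR hb ?_ (inf_le_right.trans (Cx_le.trans norm_Uq))⟩
  have hm := mem_comm h.ord hr hrp hR hb
  by_cases e : r = q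
  · subst e
    exact hm.le_Uq.trans le_normalizer
  · exact fun a ha => centralizer_le_normalizer _ fun b hb =>
      core_comm hq hr (Ne.symm e) (h1 hb) (g.mem_le h.ord hr hrp hm (hall r hr hrp _ hm) ha)

theorem one_le {S : Subgroup G} (hb : b ∈ S) (hc : IsConj x b) : Uq q b ≤ oneE q x S :=
  le_iSup (fun b : {b : G // b ∈ S ∧ IsConj x b} => Uq q (b : G)) ⟨b, hb, hc⟩

theorem one_norm (S : Subgroup G) : normalizer (S : Set G) ≤ normalizer (oneE q x S : Set G) := fun g hg =>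
  mem_normalizer_of_cj_le ((cj_le_cj_iff g⁻¹).1 (by
    rw [cj_inv_cj]
    refine iSup_le fun b => (cj_le_cj_iff g).1 ?_
    rw [cj_cj_inv, cj_Uq]
    exact one_le (Tech.conj_mem_of_mem_normalizer hg b.2.1) (b.2.2.trans (isConj_iff.2 ⟨g, rfl⟩))))

theorem one_pg (hq : q.Prime) (hqp : q ≠ p) (hg : ∀ b, IsConj x b → OneG p q b) (S : Subgroup G)
    (hS : IsPGroup p S) : IsPGroup q (oneE q x S) := by
  haveI := Fact.mk hq
  induction S using WellFoundedLT.induction with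
  | ind S ih =>
  have key : ∀ b ∈ S, IsConj x b → ∀ b' ∈ S, IsConj x b' → Uq q b ≤ normalizer (Uq q b' : Set G) := by
    intro b hb cb b' hb' cb'
    by_cases e : S ≤ zpowers b
    · exact (hg b' cb').2 q hq hqp _ (hg b cb).1 (norm_Uq (le_normalizer (e hb')))
    obtain ⟨S₁, ⟨h1, h2⟩, hm⟩ := Finite.exists_le_maximal (p := fun K : Subgroup G => K < S) (a := zpowers b)
      (lt_of_le_not_ge (zpowers_le.2 hb) e) |>.imp fun K h => (⟨⟨h.1, h.2.1⟩, h.2.2⟩ :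
        (zpowers b ≤ K ∧ K < S) ∧ ∀ ⦃y⦄, y < S → K ≤ y → y ≤ K)
    have h3 := lt_inf_normalizer_of_lt hS h2
    have h4 : S ≤ normalizer (S₁ : Set G) := by
      by_contra h4
      exact h3.not_ge (hm (lt_of_le_not_ge inf_le_left fun h5 => h4 (h5.trans inf_le_right)) h3.le)
    exact (one_le (h1 (mem_zpowers b)) cb).trans
      ((hg b' cb').2 q hq hqp _ (ih S₁ h2 (hS.to_le h2.le)) (one_norm S₁ (h4 hb')))
  exact (isPGroup_pCoreOf (oneE q x S)).to_le (iSup_le fun b' => le_pCoreOf (hg _ b'.2.2).1 (one_le b'.2.1 b'.2.2)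
    (iSup_le fun b => key _ b.2.1 b.2.2 _ b'.2.1 b'.2.2))

theorem Hyp.one (h : Hyp p x) (hH : H ≠ ⊤) (hx : x ∈ H)
    (hall : ∀ q : ℕ, q.Prime → q ≠ p → ∀ T, Mem q x T → T ≤ H) : False := by
  obtain ⟨q, hq, hqp, T, hT, T1⟩ := h.exists_mem
  haveI := Fact.mk hq
  have hg : ∀ b, IsConj x b → OneG p q b := fun b hb => by
    obtain ⟨g, rfl⟩ := isConj_iff.1 hb
    refine one_g (H := cj g H) (h.conj g) (fun e => hH (cj_injective g (e.trans (cj_top g).symm)))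
      (conj_mem_cj.2 hx) (fun r hr hrp U hU => (cj_le_cj_iff g⁻¹).1 ?_) hq hqp
    have := hU.conj g⁻¹
    rw [show g⁻¹ * (g * x * g⁻¹) * g⁻¹⁻¹ = x by group] at this
    rw [cj_inv_cj]
    exact hall r hr hrp _ this
  obtain ⟨z, hz, z1⟩ := (bot_or_exists_ne_one T).resolve_left T1
  have h1 : z ∈ pCoreOf q ⊤ := bs hq (mem_top z) fun c _ => by
    obtain ⟨S, hS, xS, SK, hM⟩ := (h.gd _ (h.two c) (subset_closure (by simp))).fr
    have h2 := hM (normalizer (oneE q x S : Set G)) (fun r hr hrp => by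
      haveI := Fact.mk hr
      exact (le_iInf fun b => (hg _ b.2.2).2 r hr hrp _ (isPGroup_pCoreOf _)
        (le_normalizer_pCoreOf _ (SK b.2.1))).trans (iInf_normalizer_le_normalizer_iSup _))
      (inf_le_right.trans (one_norm S))
    have h3 := one_le xS (IsConj.refl x) (hT.le_Uq hz)
    exact ⟨_, one_pg hq hqp hg S hS, h3, Tech.conj_mem_of_mem_normalizer (h2 (subset_closure (by simp))) h3⟩
  exact h.core q hq _ (isPGroup_pCoreOf ⊤) (fun e => z1 (e.le h1)) (top_le_iff.1 (le_normalizer_pCoreOf ⊤))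

end CfsgLib.F2C
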