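import Cfsg.Agent.Lib.F2C.LemC

/-!
F2C/ONE. `all_in`: `E = ⟨x, b⟩` is abelian, not cyclic, a `p`-group, normalises every `QU`. For a `QU` `U ≠ ⊥`: `Coprime.le_of_forall_centralizer_le` gives `1 ≠ e ∈ E` with `U ⊓ C(e) ≰ C(x)`; `e = xⁱ bʲ`, `p ∤ j`, replace `e` by a power
`e = xⁱ b`; special `1 ≠ u ∈ U ⊓ C(e)` (`exists_sp_ne`). Two such `(U₁,e₁,u₁)`, `(U₂,e₂,u₂)` lie with `x` in a proper `H`: `C(e₁)` if `e₁ = e₂`; else `y = e₁ e₂⁻¹` generates `P`, `H = ⟨u₁⁻¹ x u₁, e₂ u₂⟩ ∋ e₂, u₂`,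
`u₁⁻¹ y u₁ e₂ = e₁ m`, `m = u₁⁻¹ e₂⁻¹ u₁ e₂ ∈ U₁ ⊓ C(e₁)`, so `e₁, y, x, u₁ ∈ H`. `Tᵢ = [Uᵢ ⊓ H, P] ≠ ⊥`; `kl` gives `T₁ ≤ N(U₂)`, and `kl` in `N(U₂)` gives `U₂ ≤ N(U₁)`. `H₀ = N(U₁)`.
`one`: `T₀ ≠ ⊥` a `q`-member. For conjugates `b` of `x`: `Uq q b` is a `q`-group (`≤ O_q(H)`, `cj_Uq`); every `b`-invariant `r`-group (`r ≠ p`) normalises it (`le_of_comm`, `norm_Uq`, `core_comm`).
`E S = ⨆ (b ∈ S, b ~ x) Uq q b` is a `q`-group for `p`-groups `S` (induction on `|S|`: for `b, b' ∈ S`, either `S = ⟨b⟩` or `b ∈ S₁ ◁ S` maximal; `b'` normalises the `q`-group `Uq q b` resp. `E S₁`, so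
`Uq q b ≤ N(Uq q b')`; then all `Uq q b ≤ O_q(E S)`). For `g`: `fr` for `⟨x, g⟩` with `M = N(E S)`; `bs` for `1 ≠ z ∈ T₀`, `K = ⊤`.
-/

set_option autoImplicit false
set_option linter.unusedSectionVars false

namespace CfsgLib.F2C

open Subgroup Cfsg CfsgLib.Tech CfsgLib.W2 CfsgLib.LAE
open scoped commutatorElement

universe u

variable {G : Type u} [Group G] [Finite G] {p q r : ℕ} [Fact p.Prime] {x n c u b : G}
  {H K M R T T' U W : Subgroup G}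

namespace OneA

theorem pow_eq {a y : G} (h : a ^ p = 1) (hy : y ∈ zpowers a) : y ^ p = 1 := by
  obtain ⟨k, rfl⟩ := mem_zpowers_iff.1 hy
  rw [← zpow_natCast, ← zpow_mul, mul_comm, zpow_mul, zpow_natCast, h, one_zpow]

theorem gen {a y : G} (h : a ^ p = 1) (hy : y ∈ zpowers a) (h1 : y ≠ 1) : a ∈ zpowers y := by
  rw [eq_of_le_of_card_ge (zpowers_le.2 hy) (by
    rw [Nat.card_zpowers, Nat.card_zpowers, orderOf_eq_prime (pow_eq h hy) h1]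
    exact orderOf_le_of_pow_eq_one (Fact.out : p.Prime).pos h)]
  exact mem_zpowers a

theorem cx_le {a y : G} (hy : y ∈ zpowers a) : Cx a ≤ Cx y := fun _ hg =>
  Cx_comm.1 (zpowers_le.2 (Cx_comm.1 hg) hy)

theorem pg {a : G} (h : a ^ p = 1) : IsPGroup p (zpowers a) :=
  Core.isPGroup_zpowers_iff.2 ⟨1, by rwa [pow_one]⟩

theorem comm {a y z : G} (hb : b * a = a * b) (hy : y ∈ zpowers a) (hz : z ∈ zpowers b) : Commute y z :=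
  mem_Cx.1 (cx_le hz (Cx_comm.1 (cx_le hy (mem_Cx.2 hb))))

theorem exA (ho : orderOf x = p) (hb : b * x = x * b) (h1 : b ^ p = 1) (h2 : b ∉ zpowers x) (hq : q.Prime) (hqp : q ≠ p)
    (hU : QU q x U) (h0 : U ≠ ⊥) : ∃ y ∈ zpowers x, ∃ u ∈ U, u ∈ Cx (y * b) ∧ Sp x u ∧ u ≠ 1 := by
  have := Fact.mk hq
  have hx : x ^ p = 1 := ho ▸ pow_orderOf_eq_one x
  have x1 : x ≠ 1 := fun e => (Fact.out : p.Prime).ne_one (by rw [← ho, e, orderOf_one])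
  have hbN : b ∈ normalizer (zpowers x : Set G) := Cx_le (mem_Cx.2 hb)
  have hm : ∀ g ∈ zpowers x ⊔ zpowers b, ∃ y ∈ zpowers x, ∃ z ∈ zpowers b, y * z = g := fun g =>
    (Core.mem_sup_of_le_normalizer_left (zpowers_le.2 hbN)).1
  have hE : zpowers x ⊔ zpowers b ≤ Cx x ⊓ Cx b :=
    sup_le (zpowers_le.2 ⟨mem_Cx.2 rfl, mem_Cx.2 hb.symm⟩) (zpowers_le.2 ⟨mem_Cx.2 hb, mem_Cx.2 rfl⟩)
  have hp : ∀ g ∈ zpowers x ⊔ zpowers b, g ^ p = 1 := fun g hg => by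
    obtain ⟨y, hy, z, hz, rfl⟩ := hm g hg
    rw [(comm hb hy hz).mul_pow, pow_eq hx hy, pow_eq h1 hz, one_mul]
  have : IsMulCommutative (zpowers x ⊔ zpowers b : Subgroup G) := ⟨⟨fun g g' => Subtype.ext (mem_Cx.1
    (sup_le (zpowers_le.2 (Cx_comm.1 (hE g'.2).1)) (zpowers_le.2 (Cx_comm.1 (hE g'.2).2)) g.2))⟩⟩
  by_contra hn
  refine h0 (hU.cm.symm.trans (comm_eq_bot.2 (Coprime.le_of_forall_centralizer_le (A := zpowers x ⊔ zpowers b)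
    (fun hc => ?_) (sup_le (zpowers_le.2 hU.nx) (zpowers_le.2 (hU.nP hbN)))
    (IsPGroup.coprime_card_of_ne p q hqp.symm _ _ (fun g => ⟨1, Subtype.ext (by simpa using hp g g.2)⟩) hU.pg)
    fun e he e1 => ?_)))
  · obtain ⟨g, hg⟩ := (isCyclic_iff_exists_zpowers_eq_top (α := (zpowers x ⊔ zpowers b : Subgroup G))).1 hc
    have h3 : zpowers x ⊔ zpowers b ≤ zpowers (g : G) := fun a ha => by
      obtain ⟨k, hk⟩ := mem_zpowers_iff.1 (hg.ge (mem_top ⟨a, ha⟩))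
      exact mem_zpowers_iff.2 ⟨k, congrArg Subtype.val hk⟩
    exact h2 (zpowers_le.2 (gen (hp g g.2) (h3 (mem_sup_left (mem_zpowers x))) x1) (h3 (mem_sup_right (mem_zpowers b))))
  obtain ⟨y, hy, z, hz, rfl⟩ := hm e he
  by_cases z1 : z = 1
  · subst z1
    rw [mul_one] at e1 ⊢
    exact inf_le_right.trans (cx_le (gen hx hy e1))
  obtain ⟨k, hk⟩ := mem_zpowers_iff.1 (gen h1 hz z1)
  have h3 : y ^ k * b ∈ zpowers (y * z) := mem_zpowers_iff.2 ⟨k, by rw [(comm hb hy hz).mul_zpow, hk]⟩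
  refine (inf_le_inf_left U (cx_le h3)).trans ?_
  by_contra h4
  obtain ⟨u, hu, h5⟩ := exists_sp_ne ho hq hqp (hU.pg.to_inf_left) (inf_normalizer_le_normalizer_inf
    ⟨hU.nx, le_normalizer (Cx_comm.1 (hE (mul_mem_sup (zpow_mem hy k) (mem_zpowers b))).1)⟩) h4
  exact hn ⟨_, zpow_mem hy k, u, hu.1, hu.2, h5⟩

theorem exB (h : Hyp p x) (hb : b * x = x * b) (h1 : b ^ p = 1) (h2 : b ∉ zpowers x) (hq : q.Prime) (hqp : q ≠ p)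
    (hr : r.Prime) (hrp : r ≠ p) (hU : QU q x U) (hW : IsPGroup r W) {y z u w : G} (hy : y ∈ zpowers x) (hz : z ∈ zpowers x)
    (hu : u ∈ U) (hw : w ∈ W) (h3 : u ∈ Cx (y * b)) (h4 : w ∈ Cx (z * b)) (h5 : Sp x u) :
    ∃ H : Subgroup G, H ≠ ⊤ ∧ x ∈ H ∧ u ∈ H ∧ w ∈ H := by
  have hx : x ^ p = 1 := h.ord ▸ pow_orderOf_eq_one x
  have hp : ∀ y ∈ zpowers x, (y * b) ^ p = 1 := fun y hy => by
    rw [(comm hb hy (mem_zpowers b)).mul_pow, pow_eq hx hy, h1, one_mul]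
  have hc : ∀ y ∈ zpowers x, y * b ∈ Cx x := fun y hy => mul_mem (zpowers_le.2 (mem_Cx.2 rfl) hy) (mem_Cx.2 hb)
  by_cases e : y = z
  · subst e
    exact ⟨_, h.cent_ne (e := y * b) fun e => h2 (by rw [eq_inv_of_mul_eq_one_right e]; exact inv_mem hy), Cx_comm.1 (hc y hy), h3, h4⟩
  obtain ⟨H, hH, k1, k2⟩ : ∃ H : Subgroup G, H ≠ ⊤ ∧ u⁻¹ * x * u ∈ H ∧ z * b * w ∈ H :=
    ⟨_, (h.conj u⁻¹).two (z * b * w), subset_closure (by simp), subset_closure (by simp)⟩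
  obtain ⟨k3, k4⟩ := mem_of_mul Fact.out hr hrp.symm (pg (hp z hz)) (hW.to_le (zpowers_le.2 hw)) (mem_Cx.1 h4).symm k2
  have k5 : u⁻¹ * (y * z⁻¹) * u ∈ H := by
    obtain ⟨k, hk⟩ := mem_zpowers_iff.1 (mul_mem hy (inv_mem hz))
    have := zpow_mem k1 k
    rwa [show u⁻¹ * x * u = u⁻¹ * x * u⁻¹⁻¹ by rw [inv_inv], conj_zpow, inv_inv, hk] at this
  have k6 : z * b ∈ Cx (y * b) := Cx_comm.1 (mul_mem (cx_le hy (hc z hz) |> Cx_comm.1)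
    (Cx_comm.1 (mul_mem (mem_Cx.2 (comm hb hz (mem_zpowers b)).eq) (mem_Cx.2 rfl))))
  have k7 : u⁻¹ * ((z * b)⁻¹ * u * (z * b)) ∈ U :=
    mul_mem (inv_mem hu) ((mem_normalizer_iff''.1 (hU.nP (Cx_le (hc z hz))) u).1 hu)
  have k8 : y * b ∈ H := (mem_of_mul Fact.out hq hqp.symm (pg (hp y hy)) (hU.pg.to_le (zpowers_le.2 k7))
    (mem_Cx.1 (mul_mem (inv_mem h3) (mul_mem (mul_mem (inv_mem k6) h3) k6))).symm (by
      rw [← mul_assoc, ← mem_Cx.1 (inv_mem h3)]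
      convert mul_mem k5 k3 using 1
      group)).1
  have k9 : x ∈ H := zpowers_le.2 (show y * z⁻¹ ∈ H by convert mul_mem k8 (inv_mem k3) using 1; group)
    (gen hx (mul_mem hy (inv_mem hz)) fun e' => e (mul_inv_eq_one.1 e'))
  exact ⟨H, hH, k9, (closure_le H).2 (Set.pair_subset k9 k1) h5, k4⟩

theorem exC (ho : orderOf x = p) (hq : q.Prime) (hqp : q ≠ p) (hU : QU q x U) (hx : x ∈ H) (hu : u ∈ U) (huH : u ∈ H)
    (h1 : Sp x u) (h2 : u ≠ 1) : ∃ T, Mem q x T ∧ T ≠ ⊥ ∧ T ≤ U ∧ T ≤ H := by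
  have h3 : x ∈ normalizer ((U ⊓ H : Subgroup G) : Set G) := inf_normalizer_le_normalizer_inf ⟨hU.nx, le_normalizer hx⟩
  have h4 := h1.mem_comm ho hq hqp hU.pg.to_inf_left h3 ⟨hu, huH⟩
  exact ⟨_, mem_comm ho hq hqp hU.pg.to_inf_left h3, fun e => h2 (by rwa [e, mem_bot] at h4),
    (comm_le h3).trans inf_le_left, (comm_le h3).trans inf_le_right⟩

end OneA

theorem Hyp.all_in (h : Hyp p x) (hQ : HQ p x) (hb : b * x = x * b) (h1 : b ^ p = 1) (h2 : b ∉ zpowers x) :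
    ∃ H : Subgroup G, H ≠ ⊤ ∧ x ∈ H ∧ ∀ q : ℕ, q.Prime → q ≠ p → ∀ T, Mem q x T → T ≤ H := by
  obtain ⟨q, hq, hqp, T₁, hT₁, t1⟩ := h.exists_mem
  obtain ⟨U, hU, hTU⟩ := hQ q hq hqp T₁ hT₁ t1
  have u0 : U ≠ ⊥ := fun e => t1 (le_bot_iff.1 (e ▸ hTU))
  refine ⟨_, h.core q hq U hU.pg u0, hU.nx, fun r hr hrp T hT => ?_⟩
  by_cases t0 : T = ⊥
  · exact t0 ▸ bot_le
  obtain ⟨W, hW, hTW⟩ := hQ r hr hrp T hT t0
  have w0 : W ≠ ⊥ := fun e => t0 (le_bot_iff.1 (e ▸ hTW))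
  obtain ⟨y, hy, u, hu, a1, a2, a3⟩ := OneA.exA h.ord hb h1 h2 hq hqp hU u0
  obtain ⟨z, hz, w, hw, b1, b2, b3⟩ := OneA.exA h.ord hb h1 h2 hr hrp hW w0
  obtain ⟨H, hH, hx, huH, hwH⟩ := OneA.exB h hb h1 h2 hq hqp hr hrp hU hW.pg hy hz hu hw a1 b1 a2
  obtain ⟨A, c1, c2, c3, c4⟩ := OneA.exC h.ord hq hqp hU hx hu huH a2 a3
  obtain ⟨B, d1, d2, d3, d4⟩ := OneA.exC h.ord hr hrp hW hx hw hwH b2 b3
  exact hTW.trans (h.kl hQ hq hqp hr hrp hU c1 c2 c3 (h.core r hr W hW.pg w0) hW.nx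
    (h.kl hQ hr hrp hq hqp hW d1 d2 d3 hH hx d4 c1 c4) hW.toMem le_normalizer)

end CfsgLib.F2C
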