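import Cfsg.Agent.Lib.F2C.LemC
import Cfsg.Agent.Lib.Frob.Thompson

/-!
F2C/RK1. `R1 y := ∀ b, b y = y b → b ^ p = 1 → b ∈ ⟨y⟩` passes to conjugates. For a `p`-group `S ∋ x`: `x ∈ Z(S)` (`exists_mem_center_of_normalized`), `N(S) ≤ N(P)`.
`de`: `K ≠ ⊤`, `x ∈ K`, `K ≰ N(P)` ⇒ `∃ M ≠ ⊤, N(P) ≤ M ∧ ∀ H ≠ ⊤, K ≤ H → H ≤ M` (`Gd.le_of` gives a member `⊥ ≠ T ≤ K`; `M = N(U)`; `Gd.le_of`, `kl`). Points = conjugates `y` of `x`; `y ∈ N(⟨y'⟩)` ⇒ `⟨y⟩ = ⟨y'⟩`.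
Let `c ∈ N(⟨y⟩) ⊓ N(⟨y'⟩)`. (a) if `⟨y, y', y''⟩ = ⊤` then `c ∈ N(⟨y''⟩)`: `H₁ ≥ ⟨y, y''⟩ ⊔ N(⟨y⟩)`, `H₂ ≥ ⟨y', y''⟩ ⊔ N(⟨y'⟩)` proper, `de` for `y''` and `K = H₁ ⊓ H₂`. (b) `⟨y⟩ ≠ ⟨y'⟩` ⇒ some point `y₀` has `⟨y, y', y₀⟩ = ⊤`
(`de` for `K = ⟨y, y'⟩`, `nrm` for the normal closure). (c) if `⟨y, y', y''⟩ ≠ ⊤`, `⟨y''⟩ ≠ ⟨y⟩`, then `⟨y, y₀, y''⟩ = ⊤` (`de` for `K = ⟨y, y''⟩`). So `c` lies in the normal core `K₀` of `L = N(P)`;
`x ∉ K₀` (`nrm`, `core`), `[K₀, x] ≤ K₀ ⊓ P = 1`, `C(K₀) = ⊤` (`nrm`), `K₀ = ⊥` (`cent_ne`). `L` is a Frobenius complement; `Frob.exists_nilpotent_kernel`, `mem_core_of_nilp`, `core`.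
-/

set_option autoImplicit false
set_option linter.unusedSectionVars false

namespace CfsgLib.F2C

open Subgroup Cfsg CfsgLib.Tech CfsgLib.W2 CfsgLib.LAE
open scoped commutatorElement

universe u

variable {G : Type u} [Group G] [Finite G] {p q r : ℕ} [Fact p.Prime] {x n c u b : G}
  {H K M R T T' U W : Subgroup G}

/-- the points -/
structure RkPt (p : ℕ) (y : G) : Prop where
  hy : Hyp p y
  hq : HQ p y
  r1 : ∀ b, b * y = y * b → b ^ p = 1 → b ∈ zpowers y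

/-- three elements generate the group -/
def RkGen (a b c : G) : Prop := ∀ H : Subgroup G, a ∈ H → b ∈ H → c ∈ H → H = ⊤

theorem rk1_zp {y a : G} (ho : orderOf y = p) (ha : a ∈ zpowers y) (h1 : a ≠ 1) : zpowers a = zpowers y := by
  refine eq_of_le_of_card_ge (zpowers_le.2 ha) ?_
  rw [Nat.card_zpowers, Nat.card_zpowers, ho, orderOf_eq_prime (p := p) _ h1]
  rw [← orderOf_dvd_iff_pow_eq_one, ← ho]
  exact orderOf_dvd_of_mem_zpowers ha

namespace RkPt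

variable {y y' y'' y₀ : G}

theorem pw (h : RkPt p y) : y ^ p = 1 := h.hy.ord ▸ pow_orderOf_eq_one y

theorem ne (h : RkPt p y) : y ≠ 1 := fun e => (Fact.out : p.Prime).one_lt.ne (by rw [← h.hy.ord, e, orderOf_one])

theorem pg (h : RkPt p y) : IsPGroup p (zpowers y) := isPGroup_zpowers_of_pow (k := 1) (by rw [pow_one, h.pw])

theorem nt (h : RkPt p y) : normalizer (zpowers y : Set G) ≠ ⊤ :=
  h.hy.core p Fact.out _ h.pg fun e => h.ne (mem_bot.1 (e ▸ mem_zpowers y))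

theorem cen (h : RkPt p y) {S : Subgroup G} (hS : IsPGroup p S) (hy : y ∈ S) : ∀ s ∈ S, s * y = y * s := by
  have : Nontrivial S := ⟨⟨⟨y, hy⟩, 1, fun e => h.ne (congrArg Subtype.val e)⟩⟩
  have := hS.center_nontrivial
  obtain ⟨k, hk, e⟩ := (hS.to_subgroup (center S)).nontrivial_iff_card.1 this
  obtain ⟨z, hz⟩ := exists_prime_orderOf_dvd_card' (G := center S) p (e ▸ dvd_pow_self p hk.ne')
  have c : ∀ s ∈ S, s * z.1.1 = z.1.1 * s := fun s hs => congrArg Subtype.val (mem_center_iff.1 z.2 ⟨s, hs⟩)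
  rw [← orderOf_coe, ← orderOf_coe] at hz
  have e := rk1_zp h.hy.ord (h.r1 _ (c y hy).symm (hz ▸ pow_orderOf_eq_one _)) fun e =>
    (Fact.out : p.Prime).one_lt.ne (by rw [← hz, e, orderOf_one])
  obtain ⟨m, hm⟩ := e.ge (mem_zpowers y)
  intro s hs
  exact hm ▸ (Commute.zpow_right (c s hs) m).eq

theorem ns (h : RkPt p y) {S : Subgroup G} (hS : IsPGroup p S) (hy : y ∈ S) :
    normalizer (S : Set G) ≤ normalizer (zpowers y : Set G) := fun g hg => by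
  refine mem_normalizer_of_cj_le ?_
  rw [cj_zpowers, zpowers_le]
  exact h.r1 _ (h.cen hS hy _ ((mem_normalizer_iff.1 hg y).1 hy)) (by rw [conj_pow, h.pw]; group)

theorem eqz (h : RkPt p y) (h' : RkPt p y') (hn : y' ∈ normalizer (zpowers y : Set G)) : zpowers y' = zpowers y :=
  rk1_zp h.hy.ord (h.r1 _ (h.cen (h.pg.to_sup_of_normal_left' h'.pg (zpowers_le.2 hn))
    (mem_sup_left (mem_zpowers y)) _ (mem_sup_right (mem_zpowers y'))) h'.pw) h'.ne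

theorem de (h : RkPt p y) (hK : K ≠ ⊤) (hy : y ∈ K) (hn : ¬ K ≤ normalizer (zpowers y : Set G)) :
    ∃ M : Subgroup G, M ≠ ⊤ ∧ normalizer (zpowers y : Set G) ≤ M ∧ ∀ H : Subgroup G, H ≠ ⊤ → K ≤ H → H ≤ M := by
  obtain ⟨S, h1, h2, -, h3⟩ := (h.hy.gd K hK hy).le_of h.hy.ord
  obtain ⟨q, hq, hqp, T, hT, hTK, h4⟩ : ∃ q : ℕ, q.Prime ∧ q ≠ p ∧ ∃ T, Mem q y T ∧ T ≤ K ∧
      ¬ T ≤ normalizer (zpowers y : Set G) := by
    by_contra! hh
    exact hn (h3 _ (inf_le_right.trans Cx_le) hh (inf_le_right.trans (h.ns h1 h2)))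
  have T0 : T ≠ ⊥ := fun e => h4 (e ▸ bot_le)
  obtain ⟨U, hU, hTU⟩ := h.hq q hq hqp T hT T0
  refine ⟨_, h.hy.core q hq U hU.pg fun e => T0 (eq_bot_iff.2 (e ▸ hTU)), hU.nP, fun H hH hKH => ?_⟩
  obtain ⟨S', h5, h6, -, h7⟩ := (h.hy.gd H hH (hKH hy)).le_of h.hy.ord
  exact h7 _ (inf_le_right.trans (Cx_le.trans hU.nP))
    (fun r hr hrp T' h8 h9 => h.hy.kl h.hq hq hqp hr hrp hU hT T0 hTU hH (hKH hy) (hTK.trans hKH) h8 h9)
    (inf_le_right.trans ((h.ns h5 h6).trans hU.nP))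

theorem de2 (h : RkPt p y) {g : G} (hn : g ∉ normalizer (zpowers y : Set G)) :
    ∃ M : Subgroup G, M ≠ ⊤ ∧ normalizer (zpowers y : Set G) ≤ M ∧ y ∈ M ∧ g ∈ M ∧
      ∀ H : Subgroup G, H ≠ ⊤ → y ∈ H → g ∈ H → H ≤ M := by
  have m1 : y ∈ closure {y, g} := subset_closure (by simp)
  have m2 : g ∈ closure {y, g} := subset_closure (by simp)
  obtain ⟨M, h1, h2, h3⟩ := h.de (h.hy.two g) m1 fun e => hn (e m2)
  have := h3 _ (h.hy.two g) le_rfl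
  exact ⟨M, h1, h2, this m1, this m2, fun H h4 h5 h6 => h3 H h4 ((closure_le _).2 (by simp [Set.insert_subset_iff, h5, h6]))⟩

theorem pr (h : RkPt p y) (g : G) : ∃ H : Subgroup G, H ≠ ⊤ ∧ normalizer (zpowers y : Set G) ≤ H ∧ g ∈ H := by
  by_cases hn : g ∈ normalizer (zpowers y : Set G)
  · exact ⟨_, h.nt, le_rfl, hn⟩
  · obtain ⟨M, h1, h2, -, h3, -⟩ := h.de2 hn
    exact ⟨M, h1, h2, h3⟩

theorem pa (h : RkPt p y) (h' : RkPt p y') (h'' : RkPt p y'') (hg : RkGen y y' y'')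
    (hc : c ∈ normalizer (zpowers y : Set G)) (hc' : c ∈ normalizer (zpowers y' : Set G)) :
    c ∈ normalizer (zpowers y'' : Set G) := by
  obtain ⟨H₁, a1, a2, a3⟩ := h.pr y''
  obtain ⟨H₂, b1, b2, b3⟩ := h'.pr y''
  by_contra hn
  obtain ⟨M, h1, h2, h3⟩ := h''.de (K := H₁ ⊓ H₂) (fun e => a1 (top_unique (e ▸ inf_le_left))) ⟨a3, b3⟩
    fun e => hn (e ⟨a2 hc, b2 hc'⟩)
  exact h1 (hg M (h3 _ a1 inf_le_left (a2 (le_normalizer (mem_zpowers y))))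
    (h3 _ b1 inf_le_right (b2 (le_normalizer (mem_zpowers y')))) (h3 _ a1 inf_le_left a3))

theorem pb (h : RkPt p y) (h' : RkPt p y') (hne : zpowers y' ≠ zpowers y) : ∃ g, RkGen y y' (g * y * g⁻¹) := by
  obtain ⟨M, h1, -, -, -, h2⟩ := h.de2 fun e => hne (h.eqz h' e)
  by_contra! hn
  have k : ∀ g, g * y * g⁻¹ ∈ M := fun g => by
    have := hn g
    simp only [RkGen, not_forall] at this
    obtain ⟨H, a1, a2, a3, a4⟩ := this
    exact h2 H a4 a1 a2 a3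
  exact h1 (top_unique ((h.hy.nrm M.normalCore k (normalizer_eq_top_iff.2 inferInstance)).ge.trans M.normalCore_le))

theorem pc (h : RkPt p y) (h'' : RkPt p y'') (hne : zpowers y'' ≠ zpowers y) (hg : RkGen y y' y₀)
    (hn : ¬ RkGen y y' y'') : RkGen y y₀ y'' := by
  obtain ⟨M, h1, -, h3, -, h2⟩ := h.de2 fun e => hne (h.eqz h'' e)
  simp only [RkGen, not_forall] at hn
  obtain ⟨H, a1, a2, a3, a4⟩ := hn
  intro H' b1 b2 b3
  by_contra b4
  exact h1 (hg M h3 (h2 H a4 a1 a3 a2) (h2 H' b4 b1 b3 b2))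

end RkPt

theorem Hyp.rk1 (h : Hyp p x) (hQ : ∀ y : G, Hyp p y → HQ p y)
    (h1 : ∀ b, b * x = x * b → b ^ p = 1 → b ∈ zpowers x) : False := by
  have pt : ∀ g, RkPt p (g * x * g⁻¹) := fun g => ⟨h.conj g, hQ _ (h.conj g), fun b h2 h3 => by
    rw [← cj_zpowers, mem_cj]
    refine h1 _ ?_ (by simpa using (conj_pow (a := g⁻¹)).trans (by rw [h3]; group))
    calc _ = g⁻¹ * (b * (g * x * g⁻¹)) * g := by group
      _ = _ := by rw [h2]; group⟩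
  have px : RkPt p x := by simpa using pt 1
  have nc : ∀ g c, c ∈ normalizer (zpowers (g⁻¹ * x * g⁻¹⁻¹) : Set G) ↔ g * c * g⁻¹ ∈ normalizer (zpowers x : Set G) :=
    fun g c => by rw [← cj_zpowers, ← cj_normalizer, mem_cj, inv_inv]
  have xL : x ∈ normalizer (zpowers x : Set G) := le_normalizer (mem_zpowers x)
  have K0 : ∀ c ∈ (normalizer (zpowers x : Set G)).normalCore, c = 1 := by
    have xK : x ∉ (normalizer (zpowers x : Set G)).normalCore := fun e => px.nt (top_unique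
      ((h.nrm _ e (normalizer_eq_top_iff.2 inferInstance)).ge.trans (normalCore_le _)))
    have e := h.nrm (centralizer ((normalizer (zpowers x : Set G)).normalCore : Set G)) (fun c hc => by
      by_contra hn
      have m1 : c * x * c⁻¹ * x⁻¹ ∈ zpowers x :=
        mul_mem ((mem_normalizer_iff.1 (normalCore_le _ hc) x).1 (mem_zpowers x)) (inv_mem (mem_zpowers x))
      have m2 : c * x * c⁻¹ * x⁻¹ ∈ (normalizer (zpowers x : Set G)).normalCore := by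
        simpa only [mul_assoc] using mul_mem hc ((normalCore_normal _).conj_mem _ (inv_mem hc) x)
      refine xK (zpowers_le.2 m2 ((rk1_zp h.ord m1 fun e => hn ?_).ge (mem_zpowers x)))
      rwa [mul_inv_eq_one, mul_inv_eq_iff_eq_mul] at e) (normalizer_eq_top_iff.2 inferInstance)
    intro c hc
    by_contra hn
    exact h.cent_ne hn (top_unique fun g _ => mem_Cx.2 (e.ge (mem_top g) c hc).symm)
  obtain ⟨N, -, hN, -, N0, -, nN⟩ := Frob.exists_nilpotent_kernel (H := normalizer (zpowers x : Set G))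
    (Frob.isFrobeniusComplement_iff.2 ⟨fun e => px.ne (mem_bot.1 (e ▸ xL)), px.nt, fun g c hc c1 hg => by
      by_contra gL
      have hne : zpowers (g⁻¹ * x * g⁻¹⁻¹) ≠ zpowers x := fun e =>
        gL (by simpa using inv_mem (mem_normalizer_iff_cj.2 ((cj_zpowers g⁻¹ x).trans e)))
      have hc' := (nc g c).2 hg
      obtain ⟨g₀, hg₀⟩ := px.pb (pt g⁻¹) hne
      refine c1 (K0 c fun k => (nc k c).1 ?_)
      by_cases e : zpowers (k⁻¹ * x * k⁻¹⁻¹) = zpowers x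
      · rwa [e]
      by_cases e' : RkGen x (g⁻¹ * x * g⁻¹⁻¹) (k⁻¹ * x * k⁻¹⁻¹)
      · exact px.pa (pt _) (pt _) e' hc hc'
      · exact px.pa (pt g₀) (pt _) (px.pc (pt _) e hg₀ e') hc (px.pa (pt _) (pt g₀) hg₀ hc hc')⟩)
  obtain ⟨q, hq, hd⟩ := Nat.exists_prime_and_dvd fun e => N0 (card_eq_one.1 e)
  have := Fact.mk hq
  obtain ⟨a, ha⟩ := exists_prime_orderOf_dvd_card' q hd
  rw [← orderOf_coe] at ha
  have m := mem_core_of_nilp (H := ⊤) hq nN le_top (normalizer_eq_top_iff.2 hN).ge a.2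
    (isPGroup_zpowers_of_pow (k := 1) (by rw [pow_one, ← ha, pow_orderOf_eq_one]))
  refine h.core q hq _ (isPGroup_pCoreOf ⊤) (fun e => hq.one_lt.ne ?_) (top_unique (le_normalizer_pCoreOf ⊤))
  rw [e] at m
  rw [← ha, mem_bot.1 m, orderOf_one]

end CfsgLib.F2C
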