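import Cfsg.Agent.Lib.F2C.TwoA
import Cfsg.Agent.S0205

/-!
F2C/TWO (`p = 2`). `exists_conj`: else `le_of_isolated` (Z*) with `K = ⊤`, `M = C(x)`; `O(G) = 1` by Feit–Thompson (a nontrivial solvable normal subgroup gives a nontrivial normal `q`-subgroup).
`Fo q a b`: commuting involutions `a ≠ b`, two of `a, b, a b` satisfy `Hyp 2`; symmetric in the three. `C = C(a) ⊓ C(b)`, `D = O_q(C)`, `O_v = O_q(C(v))`.
`dc`: for a proper `H ∋ a, b` and an invariant `q`-group `R ≤ H`: `R ≤ (R ⊓ O_q(H)) ⊔ (R ⊓ C)` (`le_of_comm` twice with the two good involutions).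
Family `F R := IsPGroup q R ∧ C ≤ N(R) ∧ D ≤ R`, `X = C`, `mi` with `R₀ = O_q(H) ⊔ D` (`R ⊓ C ≤ D`). `O_v ⊔ D ∈ F`. Goal `exists_R`: a `q`-group containing the three `O_v`. If `D ≠ ⊥`: `mi` twice.
If `D = ⊥`: `O_v ⊓ C = ⊥`, so `O_a` is inverted by `b`, abelian; `R ⊓ C(v) ≤ O_v` for `R ∈ F` (`dc`). `kc`: `O_a ≠ ⊥ ≠ O_b` ⇒ `Θ = O_a` is not maximal in `F`. Suppose it is. (1) `O_q(N(Θ)) = Θ`,
so invariant `q`-groups in `N(Θ)` lie in `C(a)` (`dc`). (2) `1 ≠ u ∈ Θ`, `I = ⟨u⟩`, `Q' = O_q(N(I)) ≥ Θ` (`dc`), `Coprime.le_centralizer_of_self_centralizing` (`A = ⟨a⟩`, `C = Θ`): `Q' ≤ C(a)`;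
so invariant `q`-groups in `N(I)` lie in `C(a)`. (3) `1 ≠ w ∈ O_b`; one of `a, b` is good, say `a`: `w` is inverted by `a`, so special; `lemA` with `c = u`; `Y = ⟨a, w, u⟩ ≠ ⊤` is normalised by `b`, `H = N(Y) ≠ ⊤` (`nrm`);
`Q = O_q(H) ∋ u, w` (`dc` for `⟨u⟩`, `⟨w⟩`); self-centralizing lemma with `C = I`: `w ∈ C(a)`, `w ∈ O_b ⊓ C = ⊥`. Then: `R₁` maximal above `O_a ≠ ⊥`; if `O_b ≰ R₁`, `R₂` maximal above `O_b`, `R₁ ⊓ R₂ = ⊥`;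
`le_of_four` and `kc` force `O_{ab} ⊓ Rᵢ ≠ ⊥`, so `⊥ ≠ O_{ab} ≤ R₁ ⊓ R₂`. `exists_J`: `J = O_x ⊔ O_t ⊔ O_{xt}` is normalised by `C ∋ x`; a special `n` lies in a proper `H ∋ x, t` (`lemA`), `O = O_q(H) ≤ J ⊔ C`
(`le_of_four`, `dc` in `C(v)`), so `n ∈ [O,P] ≤ J`.
-/

set_option autoImplicit false
set_option linter.unusedSectionVars false

namespace CfsgLib.F2C

open Subgroup Cfsg CfsgLib.Tech CfsgLib.W2 CfsgLib.LAE
open scoped commutatorElement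

universe u

variable {G : Type u} [Group G] [Finite G] {p q r : ℕ} [Fact p.Prime] {x n c u b : G}
  {H K M R T T' U W : Subgroup G}

/-- the family of `C`-invariant `q`-groups over `O_q(C)` -/
def TwF (q : ℕ) (C R : Subgroup G) : Prop :=
  IsPGroup q R ∧ C ≤ normalizer (R : Set G) ∧ pCoreOf q C ≤ R

/-- absorbing members of the family -/
def TwM (q : ℕ) (C R : Subgroup G) : Prop := TwF q C R ∧ ∀ R', TwF q C R' → R ⊓ R' ≠ ⊥ → R' ≤ R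

theorem TwF.core {C : Subgroup G} (hH : C ≤ H) : TwF q C (pCoreOf q H ⊔ pCoreOf q C) :=
  ⟨sup_comm (pCoreOf q C) _ ▸ LAE.isPGroup_sup (isPGroup_pCoreOf C) (isPGroup_pCoreOf H)
    (((pCoreOf_le C).trans hH).trans (le_normalizer_pCoreOf H)),
    LAE.le_normalizer_sup (hH.trans (le_normalizer_pCoreOf H)) (le_normalizer_pCoreOf C), le_sup_right⟩

theorem TwF.inf_le {C : Subgroup G} (h : TwF q C R) : R ⊓ C ≤ pCoreOf q C :=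
  le_pCoreOf h.1.to_inf_left inf_le_right (LAE.le_normalizer_inf h.2.1 le_normalizer)

namespace Fo

variable {a v : G} (h : Fo a b)
include h

theorem tw_a : a ∈ Cx a ⊓ Cx b := ⟨mem_Cx.2 rfl, mem_Cx.2 h.cm⟩

theorem tw_b : b ∈ Cx a ⊓ Cx b := ⟨mem_Cx.2 h.cm.symm, mem_Cx.2 rfl⟩

theorem tw_le : Cx a ⊓ Cx b ≤ Cx (a * b) := h.C_mul.ge.trans inf_le_right

theorem tw_ab : a * b ≠ 1 := ne_one_of_ord h.mul.b2

variable (hq : q.Prime) (hq2 : q ≠ 2)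
include hq hq2

theorem tw_mi {R₁ R₂ : Subgroup G} (f1 : TwF q (Cx a ⊓ Cx b) R₁) (f2 : TwF q (Cx a ⊓ Cx b) R₂)
    (h0 : R₁ ⊓ R₂ ≠ ⊥) : ∃ R, TwF q (Cx a ⊓ Cx b) R ∧ R₁ ≤ R ∧ R₂ ≤ R := by
  refine mi hq (X := Cx a ⊓ Cx b) ?_ (fun R hR => ⟨hR.1, hR.2.1⟩) (fun R₁ R₂ f1 f2 => ⟨f1.1.to_inf_left,
    LAE.le_normalizer_inf f1.2.1 ((LAE.le_normalizer_inf f1.2.1 f2.2.1).trans
      (normalizer_le_normalizer_normalizer _)), le_inf f1.2.2 ((le_inf f1.2.2 f2.2.2).trans le_normalizer)⟩)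
    (fun H hH hC => ⟨_, TwF.core hC, fun R hR hRH => (h.dc hq hq2 hH (hC h.tw_a) (hC h.tw_b) hR.1
      (hR.2.1 h.tw_a) (hR.2.1 h.tw_b) hRH).trans (sup_le_sup inf_le_right hR.inf_le)⟩) f1 f2 h0
  rcases h.gd with k | k | k
  exacts [k.1.core q hq, k.1.core q hq, k.1.core q hq]

theorem tw_max (f : TwF q (Cx a ⊓ Cx b) R) : ∃ M, TwM q (Cx a ⊓ Cx b) M ∧ R ≤ M := by
  obtain ⟨M, h1, h2⟩ := Finite.exists_le_maximal (p := TwF q (Cx a ⊓ Cx b)) f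
  refine ⟨M, ⟨h2.prop, fun R' f' h0 => ?_⟩, h1⟩
  obtain ⟨S, k1, k2, k3⟩ := h.tw_mi hq hq2 h2.prop f' h0
  exact k3.trans (h2.le_of_ge k1 k2)

theorem tw_cv (v1 : v ≠ 1) (hv : Cx a ⊓ Cx b ≤ Cx v) (hR : IsPGroup q R) (h1 : a ∈ normalizer (R : Set G))
    (h2 : b ∈ normalizer (R : Set G)) : R ⊓ Cx v ≤ R ⊓ pCoreOf q (Cx v) ⊔ R ⊓ (Cx a ⊓ Cx b) :=
  (h.dc hq hq2 (h.ne_top v1) (hv h.tw_a) (hv h.tw_b) hR.to_inf_left
    (LAE.le_normalizer_inf (zpowers_le.2 h1) ((zpowers_le.2 (hv h.tw_a)).trans le_normalizer) (mem_zpowers a))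
    (LAE.le_normalizer_inf (zpowers_le.2 h2) ((zpowers_le.2 (hv h.tw_b)).trans le_normalizer) (mem_zpowers b))
    inf_le_right).trans (sup_le_sup (inf_le_inf_right _ inf_le_left) (inf_le_inf_right _ inf_le_left))

theorem tw_four (hR : IsPGroup q R) (h1 : a ∈ normalizer (R : Set G)) (h2 : b ∈ normalizer (R : Set G))
    (k0 : R ⊓ (Cx a ⊓ Cx b) ≤ M) (k1 : R ⊓ pCoreOf q (Cx a) ≤ M) (k2 : R ⊓ pCoreOf q (Cx b) ≤ M)
    (k3 : R ⊓ pCoreOf q (Cx (a * b)) ≤ M) : R ≤ M := by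
  have := Fact.mk hq
  obtain ⟨k, hk⟩ := hR.exists_card_eq
  exact W2.le_of_four (hk ▸ (hq.odd_of_ne_two hq2).pow) h.a2 h.b2 h.ne h.cm h1 h2
    ((h.tw_cv hq hq2 (ne_one_of_ord h.a2) inf_le_left hR h1 h2).trans (sup_le k1 k0))
    ((h.tw_cv hq hq2 (ne_one_of_ord h.b2) inf_le_right hR h1 h2).trans (sup_le k2 k0))
    ((h.tw_cv hq hq2 h.tw_ab h.tw_le hR h1 h2).trans (sup_le k3 k0))

variable (hD : pCoreOf q (Cx a ⊓ Cx b) = ⊥)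
include hD

omit h hq hq2 in
theorem tw_O (hv : Cx a ⊓ Cx b ≤ H) : TwF q (Cx a ⊓ Cx b) (pCoreOf q H) := by
  simpa only [hD, sup_bot_eq] using TwF.core (q := q) hv

theorem tw_third (m : TwM q (Cx a ⊓ Cx b) R) (h1 : pCoreOf q (Cx a) ≤ R) (ha : pCoreOf q (Cx a) ≠ ⊥)
    (hb : pCoreOf q (Cx b) ≠ ⊥) (h2 : R ⊓ pCoreOf q (Cx b) = ⊥) :
    pCoreOf q (Cx (a * b)) ≤ R ∧ pCoreOf q (Cx (a * b)) ≠ ⊥ := by
  have h3 : R ⊓ pCoreOf q (Cx (a * b)) ≠ ⊥ := fun e => by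
    obtain ⟨S, k1, k2, k3⟩ := h.kc hq hq2 hD ha hb
    refine k3.not_ge ((m.2 S ⟨k1, k2, hD.le.trans bot_le⟩ (ne_bot_of_le_ne_bot ha (le_inf h1 k3.le))).trans ?_)
    exact h.tw_four hq hq2 m.1.1 (m.1.2.1 h.tw_a) (m.1.2.1 h.tw_b) (m.1.inf_le.trans (hD.le.trans bot_le))
      inf_le_right (h2.le.trans bot_le) (e.le.trans bot_le)
  exact ⟨m.2 _ (tw_O hD h.tw_le) h3, ne_bot_of_le_ne_bot h3 inf_le_right⟩

theorem tw_key (m : TwM q (Cx a ⊓ Cx b) R) (h1 : pCoreOf q (Cx a) ≤ R) (ha : pCoreOf q (Cx a) ≠ ⊥) :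
    pCoreOf q (Cx b) ≤ R := by
  by_contra h2
  have hb : pCoreOf q (Cx b) ≠ ⊥ := fun e => h2 (e.le.trans bot_le)
  obtain ⟨S, m', h3⟩ := h.tw_max hq hq2 (tw_O hD inf_le_right)
  have h4 : R ⊓ S = ⊥ := by_contra fun e => h2 (h3.trans (m.2 S m'.1 e))
  obtain ⟨k1, k2⟩ := h.tw_third hq hq2 hD m h1 ha hb (eq_bot_iff.2 ((inf_le_inf_left R h3).trans h4.le))
  have k3 := (h.symm.tw_third hq hq2 (inf_comm (Cx a) _ ▸ hD) (inf_comm (Cx a) _ ▸ m') h3 hb ha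
    (eq_bot_iff.2 ((inf_le_inf_left S h1).trans ((inf_comm S R).trans h4).le))).1
  exact k2 (eq_bot_iff.2 ((le_inf k1 (h.cm ▸ k3)).trans h4.le))

theorem tw_R (ha : pCoreOf q (Cx a) ≠ ⊥) : ∃ R : Subgroup G, IsPGroup q R ∧
    pCoreOf q (Cx a) ≤ R ∧ pCoreOf q (Cx b) ≤ R ∧ pCoreOf q (Cx (a * b)) ≤ R := by
  obtain ⟨R, m, h1⟩ := h.tw_max hq hq2 (tw_O hD inf_le_left)
  exact ⟨R, m.1.1, h1, h.tw_key hq hq2 hD m h1 ha,
    h.mul.tw_key hq hq2 (h.C_mul.symm ▸ hD) (h.C_mul.symm ▸ m) h1 ha⟩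

end Fo

theorem Fo.exists_R {a : G} (h : Fo a b) (hq : q.Prime) (hq2 : q ≠ 2) : ∃ R : Subgroup G, IsPGroup q R ∧
    pCoreOf q (Cx a) ≤ R ∧ pCoreOf q (Cx b) ≤ R ∧ pCoreOf q (Cx (a * b)) ≤ R := by
  by_cases hD : pCoreOf q (Cx a ⊓ Cx b) = ⊥
  · by_cases ha : pCoreOf q (Cx a) = ⊥
    · by_cases hb : pCoreOf q (Cx b) = ⊥
      · exact ⟨_, isPGroup_pCoreOf _, ha.le.trans bot_le, hb.le.trans bot_le, le_rfl⟩
      · obtain ⟨R, h1, h2, h3, h4⟩ := h.symm.tw_R hq hq2 (inf_comm (Cx a) _ ▸ hD) hb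
        exact ⟨R, h1, h3, h2, h.cm ▸ h4⟩
    · exact h.tw_R hq hq2 hD ha
  · obtain ⟨R, m, h1⟩ := h.tw_max hq hq2 (TwF.core inf_le_left)
    have h2 : ∀ H, Cx a ⊓ Cx b ≤ H → pCoreOf q H ≤ R := fun H hH => le_sup_left.trans
      (m.2 _ (TwF.core hH) (ne_bot_of_le_ne_bot hD (le_inf m.1.2.2 le_sup_right)))
    exact ⟨R, m.1.1, h2 _ inf_le_left, h2 _ inf_le_right, h2 _ h.tw_le⟩

theorem Hyp.exists_conj (h : Hyp 2 x) :
    ∃ g : G, g * x * g⁻¹ ≠ x ∧ g * x * g⁻¹ * x = x * (g * x * g⁻¹) := by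
  by_contra! k
  refine h.cent_ne (ne_one_of_ord h.ord) (top_le_iff.1 (W2.le_of_isolated h.ord (mem_top x)
    (fun g _ hg => by_contra fun e => k g e (mem_Cx.1 hg)) ?_ inf_le_right))
  rcases (PComp.opOf 2 (⊤ : Subgroup G)).bot_or_nontrivial with e | e
  · exact e.le.trans bot_le
  have := Cfsg.Agent.S0205.result (odd_card_opOf (⊤ : Subgroup G))
  obtain ⟨r, hr, h1⟩ := Core.exists_pCore_ne_bot (G := PComp.opOf 2 (⊤ : Subgroup G))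
  exact absurd (top_le_iff.1 (le_normalizer_pCoreOf_of_le (PComp.le_normalizer_opOf ⊤)))
    (h.core r hr _ (isPGroup_pCoreOf _) (mt pCoreOf_eq_bot_iff.1 h1))

theorem Hyp.exists_J (h : Hyp 2 x) (hq : q.Prime) (hq2 : q ≠ 2) :
    ∃ J : Subgroup G, IsPGroup q J ∧ ∀ T, Mem q x T → T ≤ J := by
  obtain ⟨g, h1, h2⟩ := h.exists_conj
  have f : Fo x (g * x * g⁻¹) := ⟨h.ord, (h.conj g).ord, h1.symm, h2.symm, .inl ⟨h, h.conj g⟩⟩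
  generalize g * x * g⁻¹ = t at f
  obtain ⟨R, pR, r1, r2, r3⟩ := f.exists_R hq hq2
  have n1 : ∀ H, Cx x ⊓ Cx t ≤ H → Cx x ⊓ Cx t ≤ normalizer (pCoreOf q H : Set G) := fun H hH =>
    hH.trans (le_normalizer_pCoreOf H)
  have n2 := LAE.le_normalizer_sup (LAE.le_normalizer_sup (n1 _ inf_le_left) (n1 _ inf_le_right)) (n1 _ f.tw_le)
  refine ⟨_, pR.to_le (sup_le (sup_le r1 r2) r3), fun T hT => hT.le_of_sp h.ord hq hq2 fun n hn sp => ?_⟩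
  obtain ⟨H, hH, k1, k2, k3⟩ := h.lemA sp (Cx_le f.tw_b.1)
  have o1 := le_normalizer_pCoreOf (p := q) H k1
  have o2 := f.tw_four hq hq2 (isPGroup_pCoreOf H) o1 (le_normalizer_pCoreOf H k3)
    (M := pCoreOf q (Cx x) ⊔ pCoreOf q (Cx t) ⊔ pCoreOf q (Cx (x * t)) ⊔ Cx x ⊓ Cx t)
    (le_sup_of_le_right inf_le_right) (le_sup_of_le_left (le_sup_of_le_left (le_sup_of_le_left inf_le_right)))
    (le_sup_of_le_left (le_sup_of_le_left (le_sup_of_le_right inf_le_right)))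
    (le_sup_of_le_left (le_sup_of_le_right inf_le_right))
  refine commutator_le.2 (fun y hy z hz => ?_) (sp.mem_comm h.ord hq hq2 (isPGroup_pCoreOf H) o1
    ((h.gd H hH k1).oq q hq hq2 n k2 sp (hT.pg.to_le (zpowers_le.2 hn))))
  obtain ⟨j, hj, c, hc, rfl⟩ := (LAE.mem_sup_iff_of_right_le_normalizer n2).1 (o2 hy)
  obtain ⟨i, rfl⟩ := hz
  have e : Commute c (x ^ i) := Commute.zpow_right (mem_Cx.1 hc.1) i
  rw [show ⁅j * c, x ^ i⁆ = j * (x ^ i * j⁻¹ * (x ^ i)⁻¹) by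
    rw [commutatorElement_def, mul_assoc j c, e.eq]; group]
  exact mul_mem hj (LAE.conj_mem_of_mem_normalizer (n2 (zpow_mem f.tw_a i)) (inv_mem hj))

theorem Hyp.even (h : Hyp 2 x) : HQ 2 x := fun q hq hq2 T hT _ => by
  obtain ⟨J, h1, h2⟩ := h.exists_J hq hq2
  exact ⟨Uq q x, ⟨mem_Uq (h1.to_le (sSup_le h2)), norm_Uq, fun _ k _ => k.le_Uq⟩, hT.le_Uq⟩

end CfsgLib.F2C
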