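import Cfsg.Agent.Lib.F2C.Kit

/-!
F2C/TWO (`p = 2`). `exists_conj`: else `le_of_isolated` (Z*) with `K = ⊤`, `M = C(x)`; `O(G) = 1` by Feit–Thompson (a nontrivial solvable normal subgroup gives a nontrivial normal `q`-subgroup).
`Fo q a b`: commuting involutions `a ≠ b`, two of `a, b, a b` satisfy `Hyp 2`; symmetric in the three. `C = C(a) ⊓ C(b)`, `D = O_q(C)`, `O_v = O_q(C(v))`.
`dc`: for a proper `H ∋ a, b` and an invariant `q`-group `R ≤ H`: `R ≤ (R ⊓ O_q(H)) ⊔ (R ⊓ C)` (`le_of_comm` twice with the two good involutions).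
Family `F R := IsPGroup q R ∧ C ≤ N(R) ∧ D ≤ R`, `X = C`, `mi` with `R₀ = O_q(H) ⊔ D` (`R ⊓ C ≤ D`). `O_v ⊔ D ∈ F`. Goal `exists_R`: a `q`-group containing the three `O_v`. If `D ≠ ⊥`: `mi` twice.
If `D = ⊥`: `O_v ⊓ C = ⊥`, so `O_a` is inverted by `b`, abelian; `R ⊓ C(v) ≤ O_v` for `R ∈ F` (`dc`). `kc`: `O_a ≠ ⊥ ≠ O_b` ⇒ `Θ = O_a` is not maximal in `F`. Suppose it is. (1) `O_q(N(Θ)) = Θ`,
so invariant `q`-groups in `N(Θ)` lie in `C(a)` (`dc`). (2) `1 ≠ u ∈ Θ`, `I = ⟨u⟩`, `Q' = O_q(N(I)) ≥ Θ` (`dc`), `Coprime.le_centralizer_of_self_centralizing` (`A = ⟨a⟩`, `C = Θ`): `Q' ≤ C(a)`;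
so invariant `q`-groups in `N(I)` lie in `C(a)`. (3) `1 ≠ w ∈ O_b`; one of `a, b` is good, say `a`: `w` is inverted by `a`, so special; `lemA` with `c = u`; `Y = ⟨a, w, u⟩ ≠ ⊤` is normalised by `b`, `H = N(Y) ≠ ⊤` (`nrm`);
`Q = O_q(H) ∋ u, w` (`dc` for `⟨u⟩`, `⟨w⟩`); self-centralizing lemma with `C = I`: `w ∈ C(a)`, `w ∈ O_b ⊓ C = ⊥`. Then: `R₁` maximal above `O_a ≠ ⊥`; if `O_b ≰ R₁`, `R₂` maximal above `O_b`, `R₁ ⊓ R₂ = ⊥`;
`le_of_four` and `kc` force `O_{ab} ⊓ Rᵢ ≠ ⊥`, so `⊥ ≠ O_{ab} ≤ R₁ ⊓ R₂`. `exists_J`: `J = O_x ⊔ O_t ⊔ O_{xt}` is normalised by `C ∋ x`; a special `n` lies in a proper `H ∋ x, t` (`lemA`), `O = O_q(H) ≤ J ⊔ C`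
(`le_of_four`, `dc` in `C(v)`), so `n ∈ [O,P] ≤ J`.
-/

set_option autoImplicit false
set_option linter.unusedSectionVars false

namespace CfsgLib.F2C

open Subgroup Cfsg CfsgLib.Tech CfsgLib.W2 CfsgLib.LAE
open scoped commutatorElement

universe u

variable {G : Type u} [Group G] [Finite G] {p q r : ℕ} [Fact p.Prime] {x n c u b : G}
  {H K M R T T' U W : Subgroup G}

/-- a four-group with two good involutions -/
structure Fo (a b : G) : Prop where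
  a2 : orderOf a = 2
  b2 : orderOf b = 2
  ne : a ≠ b
  cm : a * b = b * a
  gd : Hyp 2 a ∧ Hyp 2 b ∨ Hyp 2 a ∧ Hyp 2 (a * b) ∨ Hyp 2 b ∧ Hyp 2 (a * b)

variable {a : G}

theorem Fo.symm (h : Fo a b) : Fo b a :=
  ⟨h.b2, h.a2, h.ne.symm, h.cm.symm, by rw [← h.cm]; have := h.gd; tauto⟩

theorem Fo.twa_aab (h : Fo a b) : a * (a * b) = b := by rw [← mul_assoc, sq_of_ord h.a2, one_mul]

theorem Fo.mul (h : Fo a b) : Fo a (a * b) := by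
  refine ⟨h.a2, ord_two ?_ fun e => h.ne ?_, fun e => ne_one_of_ord h.b2 (left_eq_mul.1 e), ?_, ?_⟩
  · rw [mul_assoc, ← mul_assoc b, ← h.cm, mul_assoc, sq_of_ord h.b2, mul_one, sq_of_ord h.a2]
  · rw [← h.twa_aab, e, mul_one]
  · rw [mul_assoc, h.cm]
  · rw [h.twa_aab]; have := h.gd; tauto

theorem Fo.C_mul (h : Fo a b) : Cx a ⊓ Cx (a * b) = Cx a ⊓ Cx b := by
  have _ := h
  ext g
  refine and_congr_right fun h1 => ?_
  change g ∈ Cx (a * b) ↔ g ∈ Cx b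
  rw [Cx_comm, Cx_comm (x := b), mul_mem_cancel_left (Cx_comm.1 h1)]

theorem Fo.ne_top (h : Fo a b) {e : G} (he : e ≠ 1) : Cx e ≠ ⊤ := by
  rcases h.gd with k | k | k <;> exact k.1.cent_ne he

theorem Fo.twa_core (h : Fo a b) (hq : q.Prime) {I : Subgroup G} (hI : IsPGroup q I) (h1 : I ≠ ⊥) :
    normalizer (I : Set G) ≠ ⊤ := by
  rcases h.gd with k | k | k <;> exact k.1.core q hq I hI h1

theorem twa_inf {g : G} (h1 : g ∈ normalizer (R : Set G)) (h2 : g ∈ normalizer (K : Set G)) :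
    g ∈ normalizer ((R ⊓ K : Subgroup G) : Set G) := inf_normalizer_le_normalizer_inf ⟨h1, h2⟩

theorem twa_dc (ga : Hyp 2 a) (gb : Hyp 2 b) (cm : a * b = b * a) (hq : q.Prime) (hq2 : q ≠ 2) (hH : H ≠ ⊤)
    (ha : a ∈ H) (hb : b ∈ H) (hR : IsPGroup q R) (h1 : a ∈ normalizer (R : Set G))
    (h2 : b ∈ normalizer (R : Set G)) (hRH : R ≤ H) :
    R ≤ (R ⊓ pCoreOf q H) ⊔ (R ⊓ (Cx a ⊓ Cx b)) := by
  have k : ∀ x : G, Hyp 2 x → x ∈ H → ∀ R' ≤ R, x ∈ normalizer (R' : Set G) →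
      ⁅R', zpowers x⁆ ≤ (R ⊓ pCoreOf q H) ⊔ (R ⊓ (Cx a ⊓ Cx b)) := fun x g hx R' hle hn =>
    le_sup_of_le_left (le_inf ((comm_le hn).trans hle) ((g.gd H hH hx).mem_le g.ord hq hq2
      (mem_comm g.ord hq hq2 (hR.to_le hle) hn) ((comm_le hn).trans (hle.trans hRH))))
  have h3 : b ∈ normalizer ((R ⊓ Cx a : Subgroup G) : Set G) := twa_inf h2 (le_normalizer (mem_Cx.2 cm.symm))
  exact le_of_comm ga.ord hq hq2 hR h1 (k a ga ha R le_rfl h1)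
    (le_of_comm gb.ord hq hq2 hR.to_inf_left h3 (k b gb hb _ inf_le_left h3)
      (le_sup_of_le_right (inf_assoc _ _ _).le))

theorem Fo.dc (h : Fo a b) (hq : q.Prime) (hq2 : q ≠ 2) (hH : H ≠ ⊤) (ha : a ∈ H) (hb : b ∈ H)
    (hR : IsPGroup q R) (h1 : a ∈ normalizer (R : Set G)) (h2 : b ∈ normalizer (R : Set G)) (hRH : R ≤ H) :
    R ≤ (R ⊓ pCoreOf q H) ⊔ (R ⊓ (Cx a ⊓ Cx b)) := by
  rcases h.gd with k | k | k
  · exact twa_dc k.1 k.2 h.cm hq hq2 hH ha hb hR h1 h2 hRH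
  · rw [← h.C_mul]
    exact twa_dc k.1 k.2 h.mul.cm hq hq2 hH ha (mul_mem ha hb) hR h1 (mul_mem h1 h2) hRH
  · rw [inf_comm (Cx a), ← h.symm.C_mul]
    exact twa_dc k.1 (h.cm ▸ k.2) h.symm.mul.cm hq hq2 hH hb (mul_mem hb ha) hR h2 (mul_mem h2 h1) hRH

theorem twa_sqrt (hq : q.Prime) (hq2 : q ≠ 2) (hR : IsPGroup q R) {m : G} (hm : m ∈ R) :
    ∃ j : ℕ, m ^ j * m ^ j = m := by
  obtain ⟨k, hk⟩ := hR ⟨m, hm⟩
  obtain ⟨j, hj⟩ := (hq.odd_of_ne_two hq2).pow (n := k)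
  have e : m ^ (2 * j + 1) = 1 := hj ▸ congrArg Subtype.val hk
  exact ⟨j + 1, by rw [← pow_add, show j + 1 + (j + 1) = 2 * j + 1 + 1 by ring, pow_succ, e, one_mul]⟩

theorem twa_inv (hq : q.Prime) (hq2 : q ≠ 2) (hR : IsPGroup q R) (hb : b ∈ normalizer (R : Set G))
    (bb : b * b = 1) (h0 : R ⊓ Cx b = ⊥) (hu : u ∈ R) : b * u * b⁻¹ = u⁻¹ := by
  have hm := mul_mem (inv_mem hu) (Tech.conj_mem_of_mem_normalizer hb hu)
  obtain ⟨j, hj⟩ := twa_sqrt hq hq2 hR hm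
  have e1 : b * (u⁻¹ * (b * u * b⁻¹)) * b⁻¹ = (u⁻¹ * (b * u * b⁻¹))⁻¹ := by
    calc _ = b * u⁻¹ * b⁻¹ * (b * b * u * (b * b)⁻¹) := by group
      _ = _ := by rw [bb]; group
  have hs := pow_mem hm j
  have e2 : b * (u⁻¹ * (b * u * b⁻¹)) ^ j * b⁻¹ = ((u⁻¹ * (b * u * b⁻¹)) ^ j)⁻¹ := by
    rw [← conj_pow, e1, inv_pow]
  generalize (u⁻¹ * (b * u * b⁻¹)) ^ j = s at hj hs e2
  have e3 : u * s = 1 := h0.le ⟨mul_mem hu hs, mem_Cx.2 (mem_Cx.1 (Cx_comm.1 (mem_Cx'.2 (by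
    calc b * (u * s) * b⁻¹ = u * (u⁻¹ * (b * u * b⁻¹)) * (b * s * b⁻¹) := by group
      _ = u * s := by rw [e2, ← hj]; group))))⟩
  rw [eq_inv_of_mul_eq_one_left e3, inv_inv, ← conj_inv, e2, inv_inv]

theorem twa_zp {g : G} (h : g * u * g⁻¹ ∈ zpowers u) : g ∈ normalizer ((zpowers u : Subgroup G) : Set G) :=
  mem_normalizer_of_cj_le (by rw [cj_zpowers]; exact zpowers_le.2 h)

theorem twa_H {w : G} (ga : Hyp 2 a) (cm : a * b = b * a) (au : a * u = u * a) (aw : a * w * a⁻¹ = w⁻¹)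
    (bw : b * w = w * b) (bu : b * u * b⁻¹ = u⁻¹) (hw : ∃ j : ℕ, w ^ j * w ^ j = w) :
    ∃ H : Subgroup G, H ≠ ⊤ ∧ a ∈ H ∧ b ∈ H ∧ u ∈ H ∧ w ∈ H := by
  obtain ⟨j, hj⟩ := hw
  have sp : Sp a w := by
    have e : a * (w⁻¹ * a * w) = w * w := by
      calc _ = (a * w * a⁻¹)⁻¹ * (a * a) * w := by group
        _ = _ := by rw [aw, sq_of_ord ga.ord]; group
    have m : a * (w⁻¹ * a * w) ∈ closure {a, w⁻¹ * a * w} :=
      mul_mem (subset_closure (by simp)) (subset_closure (by simp))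
    have := pow_mem m j
    rwa [e, (Commute.refl w).mul_pow, hj] at this
  obtain ⟨H, h1, h2, h3, h4⟩ := ga.lemA sp (Cx_le (mem_Cx.2 au.symm))
  have m1 : a ∈ closure {a, w, u} := subset_closure (by simp)
  have m2 : w ∈ closure {a, w, u} := subset_closure (by simp)
  have m3 : u ∈ closure {a, w, u} := subset_closure (by simp)
  refine ⟨normalizer ((closure {a, w, u} : Subgroup G) : Set G), fun e => h1 (top_le_iff.1 ?_), le_normalizer m1,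
    mem_normalizer_of_cj_le ?_, le_normalizer m3, le_normalizer m2⟩
  · rw [← ga.nrm _ m1 e, closure_le]
    rintro y (rfl | rfl | rfl) <;> assumption
  · rw [cj, map_le_iff_le_comap, closure_le]
    rintro y (rfl | rfl | rfl)
    · show b * y * b⁻¹ ∈ Subgroup.closure _
      rwa [← cm, mul_inv_cancel_right]
    · show b * y * b⁻¹ ∈ Subgroup.closure _
      rwa [bw, mul_inv_cancel_right]
    · show b * y * b⁻¹ ∈ Subgroup.closure _
      rw [bu]; exact inv_mem m3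

theorem twa_sc {Q I : Subgroup G} (a2 : orderOf a = 2) (hq : q.Prime) (hq2 : q ≠ 2) (hQ : IsPGroup q Q)
    (h1 : a ∈ normalizer (Q : Set G)) (h2 : b ∈ normalizer (Q : Set G)) (hI : I ≤ Q) (hIa : I ≤ Cx a)
    (h3 : a ∈ normalizer (I : Set G)) (h4 : b ∈ normalizer (I : Set G))
    (h : ∀ R : Subgroup G, IsPGroup q R → a ∈ normalizer (R : Set G) → b ∈ normalizer (R : Set G) →
      R ≤ normalizer (I : Set G) → R ≤ Cx a) : Q ≤ Cx a := by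
  have := Fact.mk hq
  have k := Coprime.le_centralizer_of_self_centralizing (A := zpowers a) (C := I) hQ.isNilpotent
    (zpowers_le.2 h1) (cop a2 hq hq2 hQ) hI (by rwa [Core.centralizer_zpowers]) (by
      rw [Core.centralizer_zpowers]
      exact h _ hQ.to_inf_left (twa_inf h1 (Core.normalizer_le_normalizer_centralizer _ h3))
        (twa_inf h2 (Core.normalizer_le_normalizer_centralizer _ h4))
        (inf_le_right.trans (centralizer_le_normalizer _)))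
  exact fun y hy => mem_Cx.2 (k (mem_zpowers a) y hy)

theorem Fo.twa_inv (h : Fo a b) (hq : q.Prime) (hq2 : q ≠ 2) (hD : pCoreOf q (Cx a ⊓ Cx b) = ⊥) :
    pCoreOf q (Cx a) ⊓ (Cx a ⊓ Cx b) = ⊥ ∧ ∀ u ∈ pCoreOf q (Cx a), b * u * b⁻¹ = u⁻¹ := by
  have h0 : pCoreOf q (Cx a) ⊓ (Cx a ⊓ Cx b) = ⊥ :=
    le_bot_iff.1 ((inf_comm _ _).le.trans ((inf_pCoreOf_le inf_le_left).trans hD.le))
  refine ⟨h0, fun u hu => F2C.twa_inv hq hq2 (isPGroup_pCoreOf _) (le_normalizer_pCoreOf _ (mem_Cx.2 h.cm.symm))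
    (sq_of_ord h.b2) ?_ hu⟩
  rwa [← inf_assoc, inf_eq_left.2 (pCoreOf_le _)] at h0

theorem Fo.kc (h : Fo a b) (hq : q.Prime) (hq2 : q ≠ 2) (hD : pCoreOf q (Cx a ⊓ Cx b) = ⊥)
    (ha : pCoreOf q (Cx a) ≠ ⊥) (hb : pCoreOf q (Cx b) ≠ ⊥) :
    ∃ R : Subgroup G, IsPGroup q R ∧ Cx a ⊓ Cx b ≤ normalizer (R : Set G) ∧ pCoreOf q (Cx a) < R := by
  by_contra hn
  obtain ⟨a0, ai⟩ := h.twa_inv hq hq2 hD
  obtain ⟨b0, bi⟩ := h.symm.twa_inv hq hq2 (by rwa [inf_comm])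
  rw [inf_comm (Cx b)] at b0
  have pa : IsPGroup q (pCoreOf q (Cx a)) := isPGroup_pCoreOf _
  have pb : IsPGroup q (pCoreOf q (Cx b)) := isPGroup_pCoreOf _
  have aN : a ∈ normalizer (pCoreOf q (Cx a) : Set G) := le_normalizer_pCoreOf _ (mem_Cx.2 rfl)
  have bN : b ∈ normalizer (pCoreOf q (Cx a) : Set G) := le_normalizer_pCoreOf _ (mem_Cx.2 h.cm.symm)
  have dc : ∀ I : Subgroup G, IsPGroup q I → I ≠ ⊥ → a ∈ normalizer (I : Set G) → b ∈ normalizer (I : Set G) →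
      pCoreOf q (normalizer (I : Set G)) ≤ Cx a → ∀ R : Subgroup G, IsPGroup q R →
      a ∈ normalizer (R : Set G) → b ∈ normalizer (R : Set G) → R ≤ normalizer (I : Set G) → R ≤ Cx a :=
    fun I hI h0 h1 h2 h3 R hR h4 h5 h6 => (h.dc hq hq2 (h.twa_core hq hI h0) h1 h2 hR h4 h5 h6).trans
      (sup_le (inf_le_right.trans h3) (inf_le_right.trans inf_le_left))
  have dc' : ∀ H : Subgroup G, H ≠ ⊤ → a ∈ H → b ∈ H → ∀ R : Subgroup G, IsPGroup q R →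
      a ∈ normalizer (R : Set G) → b ∈ normalizer (R : Set G) → R ≤ H → R ⊓ (Cx a ⊓ Cx b) ≤ ⊥ →
      R ≤ pCoreOf q H := fun H h0 h1 h2 R hR h4 h5 h6 h7 =>
    (h.dc hq hq2 h0 h1 h2 hR h4 h5 h6).trans (sup_le inf_le_right (h7.trans bot_le))
  have s1 := dc _ pa ha aN bN (by
    have e := (le_pCoreOf pa le_normalizer le_rfl).eq_or_lt.resolve_right fun e => hn ⟨_, isPGroup_pCoreOf _,
      (inf_le_left.trans (le_normalizer_pCoreOf _)).trans (le_normalizer_pCoreOf _), e⟩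
    exact e.ge.trans (pCoreOf_le _))
  obtain ⟨u, hu, u1⟩ := (bot_or_exists_ne_one _).resolve_left ha
  obtain ⟨w, hw, w1⟩ := (bot_or_exists_ne_one _).resolve_left hb
  have au : a * u = u * a := (mem_Cx.1 (pCoreOf_le _ hu)).symm
  have bw : b * w = w * b := (mem_Cx.1 (pCoreOf_le _ hw)).symm
  have pu := isPGroup_zpowers_of_mem pa hu
  have aI : a ∈ normalizer ((zpowers u : Subgroup G) : Set G) := Cx_le (mem_Cx.2 au)
  have bI : b ∈ normalizer ((zpowers u : Subgroup G) : Set G) := twa_zp (ai u hu ▸ inv_mem (mem_zpowers u))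
  have u0 : zpowers u ≠ ⊥ := zpowers_ne_bot.2 u1
  have s2 := dc _ pu u0 aI bI (twa_sc h.a2 hq hq2 (isPGroup_pCoreOf _) (le_normalizer_pCoreOf _ aI)
    (le_normalizer_pCoreOf _ bI) (dc' _ (h.twa_core hq pu u0) aI bI _ pa aN bN (fun v hv => Cx_le (mem_Cx.2 (by
      have e := ai _ (mul_mem hu hv)
      rw [← conj_mul, ai u hu, ai v hv, ← mul_inv_rev, inv_inj] at e
      exact e))) a0.le) (pCoreOf_le _) aN bN s1)
  obtain ⟨H, h1, h2, h3, h4, h5⟩ : ∃ H : Subgroup G, H ≠ ⊤ ∧ a ∈ H ∧ b ∈ H ∧ u ∈ H ∧ w ∈ H := by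
    by_cases ga : Hyp 2 a
    · exact twa_H ga h.cm au (bi w hw) bw (ai u hu) (twa_sqrt hq hq2 pb hw)
    · obtain ⟨H, h1, h2, h3, h4, h5⟩ := twa_H (by have := h.gd; tauto : Hyp 2 b) h.cm.symm bw (ai u hu) au
        (bi w hw) (twa_sqrt hq hq2 pa hu)
      exact ⟨H, h1, h3, h2, h5, h4⟩
  have wQ := dc' H h1 h2 h3 _ (isPGroup_zpowers_of_mem pb hw) (twa_zp (bi w hw ▸ inv_mem (mem_zpowers w)))
    (Cx_le (mem_Cx.2 bw)) (zpowers_le.2 h5) ((inf_le_inf_right _ (zpowers_le.2 hw)).trans b0.le)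
  have := twa_sc h.a2 hq hq2 (isPGroup_pCoreOf H) (le_normalizer_pCoreOf _ h2) (le_normalizer_pCoreOf _ h3)
    (dc' H h1 h2 h3 _ pu aI bI (zpowers_le.2 h4) ((inf_le_inf_right _ (zpowers_le.2 hu)).trans a0.le))
    (zpowers_le.2 (pCoreOf_le _ hu)) aI bI s2
  exact w1 (b0.le ⟨hw, this (wQ (mem_zpowers w)), pCoreOf_le _ hw⟩)

end CfsgLib.F2C
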